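import Cfsg.Agent.ClassCount.FourSizes
import Cfsg.Agent.Cores.Basic
import Cfsg.Agent.PGroup.Basic

/-!
Class sizes `1, m, m * n` with `m`, `n` coprime: first consequences.
For a prime `p` dividing `m` every noncentral element has a centraliser whose Sylow `p`-subgroups
have the same order `cP G m p`.
-/

set_option autoImplicit false

namespace Cfsg.Agent.OneMMN

open Subgroup
open scoped Pointwise
open Cfsg.Agent.TwoLargest (cls mem_cent center_le_cent cls_pos center_of_cls_eq_one cent_eq_of_le)
open Cfsg.Agent.FourSizes (El NC)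

variable {G : Type*} [Group G] [Finite G]

/-- The class sizes are `1`, `m` and `m * n`. -/
structure Hyp (G : Type*) [Group G] (m n : ℕ) : Prop where
  m1 : 1 < m
  n1 : 1 < n
  cop : m.Coprime n
  sizes : ∀ x : G, cls x = 1 ∨ cls x = m ∨ cls x = m * n
  exm : ∃ x : G, cls x = m
  exmn : ∃ x : G, cls x = m * n

/-- The order of a Sylow `p`-subgroup of the centraliser of any noncentral element. -/
noncomputable def cP (G : Type*) [Group G] (m p : ℕ) : ℕ :=
  p ^ ((Nat.card G).factorization p - m.factorization p)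

omit [Finite G] in
theorem El.commute_cop {p : ℕ} {a b : G} (ha : El p a) (hb : (orderOf b).Coprime p) :
    (orderOf a).Coprime (orderOf b) := by
  obtain ⟨k, hk⟩ := ha
  rw [hk]
  exact hb.symm.pow_left k

omit [Finite G] in
theorem conj_el {p : ℕ} {x : G} (hx : El p x) (g : G) : El p (g * x * g⁻¹) := FGSev.pElem_conj g hx

omit [Finite G] in
theorem not_center_conj {x : G} (hx : x ∉ center G) (g : G) : g * x * g⁻¹ ∉ center G := by
  have := FourSizes.not_center_conj hx g⁻¹
  rwa [inv_inv] at this

omit [Finite G] in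
theorem mem_cent_conj {a b : G} (h : a ∈ centralizer ({b} : Set G)) (g : G) :
    g * a * g⁻¹ ∈ centralizer ({g * b * g⁻¹} : Set G) :=
  mem_cent.2 ((mem_cent.1 h).map (MulAut.conj g).toMonoidHom)

omit [Finite G] in
/-- If `x` commutes with the powers generating it, so with it. -/
theorem cent_le_zpowers {x w : G} (hw : w ∈ zpowers x) :
    centralizer ({x} : Set G) ≤ centralizer {w} := FGSev.centralizer_le_of_mem_zpowers hw

theorem el_of_mem_psub {p : ℕ} [Fact p.Prime] {R : Subgroup G} (hR : IsPGroup p R) {x : G} (hx : x ∈ R) :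
    El p x := Element.orderOf_eq_pow_of_mem_isPGroup hR hx

theorem el_cop {p : ℕ} (hp : p.Prime) {x : G} (hx : El p x) (hx' : (orderOf x).Coprime p) : x = 1 := by
  obtain ⟨k, hk⟩ := hx
  rw [← orderOf_eq_one_iff, hk]
  rcases k.eq_zero_or_pos with rfl | hk0
  · simp
  · rw [hk, Nat.coprime_pow_left_iff hk0, Nat.coprime_self] at hx'
    exact absurd hx' hp.one_lt.ne'

/-- If every `p'`-element centralises a Sylow `p`-subgroup then `p`- and `p'`-elements commute. -/
theorem commute_of_meets {K : Type*} [Group K] [Finite K] {p : ℕ} [hp : Fact p.Prime]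
    (h : ∀ w : K, (orderOf w).Coprime p → ¬ p ∣ (centralizer ({w} : Set K)).index)
    {v w : K} (hv : El p v) (hw : (orderOf w).Coprime p) : Commute v w := by
  obtain ⟨P⟩ : Nonempty (Sylow p K) := inferInstance
  have htop : (P : Subgroup K) ⊔ centralizer ((P : Subgroup K) : Set K) = ⊤ := by
    refine PSingular.eq_top_of_meets_all _ fun g => ?_
    obtain ⟨Q, hQg, hQle⟩ := PSingular.exists_sylow_mem_le (p := p)
      (h _ (Element.coprime_orderOf_pComplPart hp.out g))
      (u := Element.pPart p g) (mem_cent.2 (Element.commute_pPart_pComplPart p g))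
      (Element.orderOf_pPart_eq_pow hp.out g)
    obtain ⟨k, -, hk⟩ := PSingular.sylow_conj_of_le (D := ⊤) (P := P) (Q := Q) le_top le_top
    refine ⟨k, ?_⟩
    have e : k⁻¹ * g * k = (k⁻¹ * Element.pPart p g * k) * (k⁻¹ * Element.pComplPart p g * k) := by
      conv_lhs => rw [← Element.pPart_mul_pComplPart p g]
      group
    rw [e]
    refine mul_mem (mem_sup_left ((hk _).1 hQg)) (mem_sup_right (mem_centralizer_iff.2 fun r hr => ?_))
    have hr' : k * r * k⁻¹ ∈ (Q : Subgroup K) := (hk _).2 (by simpa [mul_assoc, SetLike.mem_coe] using SetLike.mem_coe.1 hr)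
    have hc := (mem_cent.1 (hQle hr')).map (MulAut.conj k⁻¹).toMonoidHom
    simpa [Commute, SemiconjBy, mul_assoc] using hc
  haveI hPn : (P : Subgroup K).Normal := normalizer_eq_top_iff.1 <| top_le_iff.1 <| htop ▸
    sup_le le_normalizer (fun x hx => by
      rw [mem_normalizer_iff]
      intro r
      have hx' := mem_centralizer_iff.1 hx
      constructor <;> intro hr
      · rwa [← hx' r hr, mul_inv_cancel_right]
      · have h1 := hx' _ hr
        have h2 : x * r * x⁻¹ = r := by
          have := congrArg (fun z => x⁻¹ * z) h1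
          simpa [mul_assoc, eq_comm] using this
        rwa [h2] at hr)
  have hvP : v ∈ (P : Subgroup K) := by
    obtain ⟨y, hy⟩ := FGSev.pElem_conj_mem P hv
    simpa [mul_assoc] using hPn.conj_mem _ hy y
  haveI : (centralizer ((P : Subgroup K) : Set K)).Normal := inferInstance
  have hwC : w ∈ centralizer ((P : Subgroup K) : Set K) := by
    obtain ⟨k, hk⟩ := IsPGroup.iff_card.1 P.isPGroup'
    refine Element.mem_of_coprime_index ((hw.pow_right k).coprime_dvd_right ?_)
    rw [← hk, ← relIndex_top_right, ← htop, sup_comm, relIndex_sup_left]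
    exact relIndex_dvd_card _ _
  exact mem_centralizer_iff.1 hwC v hvP

/-- An element centralised by a conjugate of every element is central. -/
theorem mem_center_of_meets {K : Type*} [Group K] [Finite K] {v : K}
    (h : ∀ g : K, ∃ k : K, Commute g (k * v * k⁻¹)) : v ∈ center K := by
  refine TwoLargest.mem_center_of_le (top_le_iff.2 (PSingular.eq_top_of_meets_all _ fun g => ?_))
  obtain ⟨k, hk⟩ := h g
  refine ⟨k, mem_cent.2 ?_⟩
  have := hk.map (MulAut.conj k⁻¹).toMonoidHom
  simpa [mul_assoc] using this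

variable {m n p : ℕ}

namespace Hyp

variable (H : Hyp G m n)
include H

theorem not_center {x : G} (h : cls x ≠ 1) : x ∉ center G := fun hx =>
  h ((ClassSize.index_centralizer_eq_one_iff x).2 hx)

theorem cases {x : G} (hx : x ∉ center G) : cls x = m ∨ cls x = m * n := by
  rcases H.sizes x with e | e | e
  · exact absurd (center_of_cls_eq_one e) hx
  · exact Or.inl e
  · exact Or.inr e

theorem mn_ne : m ≠ m * n := fun e => by
  have : m * 1 < m * n := Nat.mul_lt_mul_of_pos_left H.n1 (by linarith [H.m1])
  rw [mul_one] at this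
  exact this.ne e

theorem not_dvd_n (hp : p.Prime) (hpm : p ∣ m) : ¬ p ∣ n := fun h =>
  hp.ne_one (Nat.eq_one_of_dvd_coprimes H.cop hpm h)

theorem fac_cls (hp : p.Prime) (hpm : p ∣ m) {x : G} (hx : x ∉ center G) :
    (cls x).factorization p = m.factorization p := by
  rcases H.cases hx with e | e <;> rw [e]
  rw [Nat.factorization_mul (by linarith [H.m1]) (by linarith [H.n1]), Finsupp.add_apply,
    Nat.factorization_eq_zero_of_not_dvd (H.not_dvd_n hp hpm), add_zero]

theorem card_sylow_cent [hp : Fact p.Prime] (hpm : p ∣ m) {g : G} (hg : g ∉ center G)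
    (R : Sylow p (centralizer ({g} : Set G))) : Nat.card R = cP G m p := by
  rw [Sylow.card_eq_multiplicity, cP]
  congr 1
  have h := congrArg (fun k => Nat.factorization k p) (card_mul_index (centralizer ({g} : Set G)))
  simp only [Nat.factorization_mul Nat.card_pos.ne' index_ne_zero_of_finite, Finsupp.add_apply] at h
  rw [← H.fac_cls hp.out hpm hg]
  exact (Nat.eq_sub_of_add_eq h)

theorem psub_le [hp : Fact p.Prime] (hpm : p ∣ m) {R : Subgroup G} (hR : IsPGroup p R) {g : G}
    (hg : g ∉ center G) (hle : R ≤ centralizer ({g} : Set G)) : Nat.card R ≤ cP G m p := by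
  obtain ⟨Q, hQ⟩ := (hR.comap_subtype (K := centralizer ({g} : Set G))).exists_le_sylow
  rw [← H.card_sylow_cent hpm hg Q, ← Nat.card_congr (subgroupOfEquivOfLe hle).toEquiv]
  exact card_le_of_le hQ

/-- A centraliser of a noncentral element contains a `p`-subgroup of order `cP G m p`. -/
theorem exists_psub [hp : Fact p.Prime] (hpm : p ∣ m) {g : G} (hg : g ∉ center G) {u : G}
    (hu : u ∈ centralizer ({g} : Set G)) (hue : El p u) :
    ∃ R : Subgroup G, IsPGroup p R ∧ R ≤ centralizer {g} ∧ Nat.card R = cP G m p ∧ u ∈ R := by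
  obtain ⟨k, hk⟩ := hue
  obtain ⟨Q, hQ⟩ := Element.exists_sylow_mem (G := centralizer ({g} : Set G)) (p := p) (g := ⟨u, hu⟩)
    (k := k) (by rw [orderOf_mk]; exact hk)
  refine ⟨(Q : Subgroup _).map (centralizer ({g} : Set G)).subtype, Q.isPGroup'.map _,
    map_subtype_le _, ?_, ⟨_, hQ, rfl⟩⟩
  rw [card_subtype]
  exact H.card_sylow_cent hpm hg Q

theorem cP_lt [hp : Fact p.Prime] (hpm : p ∣ m) (P : Sylow p G) : cP G m p < Nat.card P := by
  rw [Sylow.card_eq_multiplicity, cP]
  refine Nat.pow_lt_pow_right hp.out.one_lt ?_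
  obtain ⟨x, hx⟩ := H.exm
  have h := H.fac_cls hp.out hpm (H.not_center (x := x) (by rw [hx]; exact H.m1.ne'))
  have h2 : (cls x).factorization p ≤ (Nat.card G).factorization p :=
    (Nat.factorization_le_iff_dvd index_ne_zero_of_finite Nat.card_pos.ne').2 (index_dvd_card _) p
  have h3 := hp.out.factorization_pos_of_dvd (by linarith [H.m1]) hpm
  omega

theorem center_of_sylow_le [hp : Fact p.Prime] (hpm : p ∣ m) (P : Sylow p G) {z : G}
    (hz : (P : Subgroup G) ≤ centralizer {z}) : z ∈ center G := by
  by_contra hc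
  exact absurd (H.psub_le hpm P.isPGroup' hc hz) (H.cP_lt hpm P).not_ge

/-- The centre of a Sylow `p`-subgroup is central. -/
theorem center_of_mem [hp : Fact p.Prime] (hpm : p ∣ m) (P : Sylow p G) {z : G}
    (hz : ∀ r ∈ (P : Subgroup G), r * z = z * r) : z ∈ center G :=
  H.center_of_sylow_le hpm P fun r hr => mem_cent.2 (hz r hr)

/-- Every centraliser contains a noncentral `p`-element. -/
theorem exists_nc [hp : Fact p.Prime] (hpm : p ∣ m) {g : G} (hg : g ∉ center G) :
    NC p (centralizer ({g} : Set G)) := by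
  obtain ⟨R, hR, hRle, hRc, -⟩ := H.exists_psub hpm hg (one_mem _) ⟨0, by simp⟩
  by_contra hno
  have hRZ : R ≤ center G := fun x hx => by
    by_contra hxc
    exact hno ⟨x, hRle hx, hxc, el_of_mem_psub hR hx⟩
  haveI hRn : R.Normal := ⟨fun x hx g => by
    rw [mem_center_iff.1 (hRZ hx) g, mul_inv_cancel_right]; exact hx⟩
  obtain ⟨P⟩ : Nonempty (Sylow p G) := inferInstance
  obtain ⟨u, huP, huc⟩ : ∃ u ∈ (P : Subgroup G), u ∉ center G := by
    by_contra hall
    push Not at hall
    exact hg (H.center_of_sylow_le hpm P fun r hr => mem_cent.2 ((mem_center_iff.1 (hall r hr) g).symm))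
  have hRP : R ≤ (P : Subgroup G) := by
    obtain ⟨Q, hQ⟩ := hR.exists_le_sylow
    obtain ⟨y, hy⟩ := MulAction.exists_smul_eq G Q P
    intro x hx
    rw [← hy]
    have hx' : y⁻¹ * x * y ∈ (Q : Subgroup G) := hQ (by
      rw [mem_center_iff.1 (hRZ hx) y⁻¹, inv_mul_cancel_right]; exact hx)
    show x ∈ MulAut.conj y • (Q : Subgroup G)
    exact (mem_smul_pointwise_iff_exists _ _ _).2 ⟨_, hx', by simp [MulAut.smul_def, mul_assoc]⟩
  have hlt : R < R ⊔ zpowers u :=
    lt_of_le_of_ne le_sup_left fun e => huc (hRZ (by rw [e]; exact mem_sup_right (mem_zpowers u)))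
  have hb := H.psub_le hpm (P.isPGroup'.to_le (sup_le hRP (zpowers_le.2 huP))) huc
    (sup_le (fun x hx => mem_cent.2 ((mem_center_iff.1 (hRZ hx) u).symm))
      (zpowers_le.2 (mem_cent.2 (Commute.refl u))))
  exact absurd (eq_of_le_of_card_ge hlt.le (hb.trans hRc.ge)) hlt.ne

theorem center_card_lt [hp : Fact p.Prime] (hpm : p ∣ m) (P : Sylow p G) :
    Nat.card ↥((P : Subgroup G) ⊓ center G) < cP G m p := by
  obtain ⟨x, hx⟩ := H.exm
  have hxc := H.not_center (x := x) (by rw [hx]; exact H.m1.ne')
  obtain ⟨u, -, huc, k, hk⟩ := H.exists_nc hpm hxc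
  obtain ⟨y, hy⟩ := FGSev.pElem_conj_mem P ⟨k, hk⟩
  have hv : y⁻¹ * u * y ∉ center G := FourSizes.not_center_conj huc y
  set A := (P : Subgroup G) ⊓ center G
  have hlt : A < A ⊔ zpowers (y⁻¹ * u * y) :=
    lt_of_le_of_ne le_sup_left fun e => hv (e ▸ mem_sup_right (mem_zpowers _) : y⁻¹ * u * y ∈ A).2
  refine lt_of_lt_of_le ?_ (H.psub_le hpm (P.isPGroup'.to_le (sup_le inf_le_left (zpowers_le.2 hy))) hv
    (sup_le (fun x hx => mem_cent.2 ((mem_center_iff.1 hx.2 _).symm))
      (zpowers_le.2 (mem_cent.2 (Commute.refl _)))))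
  exact Nat.lt_of_not_ge fun h => hlt.ne (eq_of_le_of_card_ge hlt.le h)

theorem cls_big_of_le {x y : G} (hx : cls x = m * n) (hy : y ∉ center G)
    (hle : centralizer ({y} : Set G) ≤ centralizer {x}) :
    centralizer ({y} : Set G) = centralizer {x} := by
  refine cent_eq_of_le hle ?_
  rcases H.cases hy with e | e
  · exfalso
    have := Nat.le_of_dvd (cls_pos y) (index_dvd_of_le hle)
    change cls x ≤ cls y at this
    rw [hx, e] at this
    have h1 : m * 1 < m * n := Nat.mul_lt_mul_of_pos_left H.n1 (by linarith [H.m1])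
    omega
  · rw [hx, e]

theorem big_central {x v : G} (hx : cls x = m * n) (hc : Commute x v)
    (hcop : (orderOf x).Coprime (orderOf v)) : centralizer ({x} : Set G) ≤ centralizer {v} := by
  have e := Element.centralizer_mul_of_coprime hc hcop
  have hle : centralizer ({x * v} : Set G) ≤ centralizer {x} := e ▸ inf_le_left
  have hnc : x * v ∉ center G := fun hz => by
    have h1 : centralizer ({x} : Set G) = ⊤ := top_le_iff.1 fun g _ =>
      hle (mem_cent.2 (mem_center_iff.1 hz g))
    rw [cls, h1, index_top] at hx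
    have := Nat.le_mul_of_pos_right m (show 0 < n by linarith [H.n1])
    linarith [H.m1]
  rw [← H.cls_big_of_le hx hnc hle, e]
  exact inf_le_right

theorem small_of_le {x y : G} (hx : cls x = m) (hy : y ∉ center G)
    (hle : centralizer ({x} : Set G) ≤ centralizer {y}) :
    centralizer ({x} : Set G) = centralizer {y} := by
  refine cent_eq_of_le hle ?_
  rcases H.cases hy with e | e
  · rw [hx, e]
  · exfalso
    have := Nat.le_of_dvd (cls_pos x) (index_dvd_of_le hle)
    change cls y ≤ cls x at this
    rw [hx, e] at this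
    have h1 : m * 1 < m * n := Nat.mul_lt_mul_of_pos_left H.n1 (by linarith [H.m1])
    omega

/-- In `C(u)`, an element of order prime to that of `u` has relative class size `1` or `n`. -/
theorem relIndex_cases {u w : G} (hu : u ∉ center G) (hus : cls u = m) (hw : Commute u w)
    (hcop : (orderOf u).Coprime (orderOf w)) :
    (centralizer ({w} : Set G)).relIndex (centralizer {u}) = 1 ∨
      (centralizer ({w} : Set G)).relIndex (centralizer {u}) = n := by
  have e := Element.centralizer_mul_of_coprime hw hcop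
  have h := relIndex_mul_index
    (inf_le_left : centralizer ({u} : Set G) ⊓ centralizer {w} ≤ centralizer {u})
  rw [inf_relIndex_left, show (centralizer ({u} : Set G)).index = m from hus, ← e] at h
  have hnc : u * w ∉ center G := fun hz => hu <| TwoLargest.mem_center_of_le fun g _ =>
    (e ▸ inf_le_left : centralizer ({u * w} : Set G) ≤ centralizer {u})
      (mem_cent.2 (mem_center_iff.1 hz g))
  have hm : 0 < m := by linarith [H.m1]
  rcases H.cases hnc with e' | e' <;> rw [show (centralizer ({u * w} : Set G)).index = _ from e'] at h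
  · exact Or.inl (Nat.eq_of_mul_eq_mul_right hm (by rw [h, one_mul]))
  · exact Or.inr (Nat.eq_of_mul_eq_mul_right hm (by rw [h, mul_comm]))

/-- In the centraliser of a noncentral `p`-element, `p`- and `p'`-elements commute. -/
theorem commute_in_cent [hp : Fact p.Prime] (hpm : p ∣ m) {u : G} (hue : El p u) (hu : u ∉ center G)
    {v w : G} (hv : v ∈ centralizer ({u} : Set G)) (hve : El p v)
    (hw : w ∈ centralizer ({u} : Set G)) (hwo : (orderOf w).Coprime p) : Commute v w := by
  rcases H.cases hu with hus | hub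
  · have key := commute_of_meets (K := centralizer ({u} : Set G)) (p := p) (fun w hwo => ?_)
      (v := ⟨v, hv⟩) (w := ⟨w, hw⟩) (FourSizes.El.coe_iff.2 hve) (by rwa [orderOf_mk])
    · exact congrArg Subtype.val key
    rw [ClassSize.centralizer_subgroupOf]
    show ¬ p ∣ (centralizer ({(w : G)} : Set G)).relIndex _
    rcases H.relIndex_cases hu hus (mem_cent.1 w.2).symm
      (El.commute_cop hue (by rwa [orderOf_coe])) with e | e <;> rw [e]
    · exact hp.out.not_dvd_one
    · exact H.not_dvd_n hp.out hpm
  · exact mem_cent.1 (H.big_central hub (mem_cent.1 hw).symm (El.commute_cop hue hwo) hv)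

/-- For another prime `s` of `m`, the `s`-elements of `C(u)` are central there. -/
theorem central_in_cent [hp : Fact p.Prime] (hpm : p ∣ m) {s : ℕ} (hs : s.Prime) (hsm : s ∣ m)
    (hsp : s ≠ p) {u : G} (hue : El p u) (hu : u ∉ center G) {v : G}
    (hv : v ∈ centralizer ({u} : Set G)) (hve : El s v) :
    centralizer ({u} : Set G) ≤ centralizer {v} := by
  haveI := Fact.mk hs
  have hvo : (orderOf v).Coprime p := hve.coprime_prime hs hp.out hsp
  rcases H.cases hu with hus | hub
  · set C := centralizer ({u} : Set G) with hC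
    have hvc : (⟨v, hv⟩ : C) ∈ center C := by
      refine mem_center_of_meets fun g => ?_
      set g' := Element.pComplPart p (g : G)
      have hg'C : g' ∈ C := zpowers_le.2 g.2 (Element.pComplPart_mem_zpowers p (g : G))
      have hgpC : Element.pPart p (g : G) ∈ C := zpowers_le.2 g.2 (Element.pPart_mem_zpowers p (g : G))
      have hg'o := Element.coprime_orderOf_pComplPart hp.out (g : G)
      have hidx : ¬ s ∣ ((centralizer ({g'} : Set G)).subgroupOf C).index := by
        show ¬ s ∣ (centralizer ({g'} : Set G)).relIndex C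
        rcases H.relIndex_cases hu hus (mem_cent.1 hg'C).symm (El.commute_cop hue hg'o) with e | e <;>
          rw [e]
        · exact hs.not_dvd_one
        · exact H.not_dvd_n hs hsm
      obtain ⟨k, hk⟩ := FourSizes.conj_into hs hidx (x := (⟨v, hv⟩ : C)) (FourSizes.El.coe_iff.2 hve)
      refine ⟨k⁻¹, ?_⟩
      rw [inv_inv]
      have h1 : Commute g' ((k⁻¹ * ⟨v, hv⟩ * k : C) : G) := (mem_cent.1 hk).symm
      have hke : El s (((k⁻¹ * ⟨v, hv⟩ * k : C) : G)) := by
        have := hve.conj (k : G)
        simpa using this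
      have h2 : Commute (Element.pPart p (g : G)) ((k⁻¹ * ⟨v, hv⟩ * k : C) : G) :=
        H.commute_in_cent hpm hue hu hgpC
          ⟨_, Element.orderOf_pPart_eq_pow hp.out (g : G)⟩ (k⁻¹ * ⟨v, hv⟩ * k : C).2
          (hke.coprime_prime hs hp.out hsp)
      have h3 := h2.mul_left h1
      rw [Element.pPart_mul_pComplPart] at h3
      exact Subtype.ext h3.eq
    intro g hg
    exact mem_cent.2 (congrArg Subtype.val (mem_center_iff.1 hvc ⟨g, hg⟩))
  · exact H.big_central hub (mem_cent.1 hv).symm (El.commute_cop hue hvo)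

/-- Elements with centralisers of equal index share their noncentral primes. -/
theorem nc_of_cls {q : ℕ} (hq : q.Prime) {x y : G} (h : cls y ∣ cls x)
    (hx : NC q (centralizer ({x} : Set G))) : NC q (centralizer ({y} : Set G)) :=
  hx.of_index hq (center_le_cent x) (center_le_cent y) h

/-- Elements of class size `m` see every noncentral prime outside `m`. -/
theorem full {q : ℕ} (hq : q.Prime) (hqm : ¬ q ∣ m) {x : G} (hx : cls x = m) {a : G}
    (ha : a ∉ center G) (hae : El q a) : NC q (centralizer ({x} : Set G)) := by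
  obtain ⟨k, hk⟩ := FourSizes.conj_into hq (D := centralizer ({x} : Set G))
    (by rw [show (centralizer ({x} : Set G)).index = m from hx]; exact hqm) hae
  exact ⟨_, hk, FourSizes.not_center_conj ha k, hae.conj k⟩

/-- There is a noncentral element of prime power order outside `m`. -/
theorem exists_nc_out : ∃ (q : ℕ) (a : G), q.Prime ∧ ¬ q ∣ m ∧ a ∉ center G ∧ El q a := by
  obtain ⟨q, hq, hqn⟩ := Nat.exists_prime_and_dvd H.n1.ne'
  obtain ⟨x, hx⟩ := H.exmn
  haveI := Fact.mk hq
  obtain ⟨P⟩ : Nonempty (Sylow q G) := inferInstance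
  refine ⟨q, ?_⟩
  by_contra hno
  push Not at hno
  have hPZ : ∀ r ∈ (P : Subgroup G), r ∈ center G := fun r hr => by
    by_contra hr'
    exact hno r hq (fun hqm => H.not_dvd_n hq hqm hqn) hr' (el_of_mem_psub P.isPGroup' hr)
  refine P.not_dvd_index ((hqn.trans (dvd_mul_left n m)).trans ?_)
  rw [← hx]
  exact index_dvd_of_le fun r hr => mem_cent.2 ((mem_center_iff.1 (hPZ r hr) x).symm)

/-- A primary element of class size `m`. -/
theorem exists_small : ∃ (q : ℕ) (a : G), q.Prime ∧ El q a ∧ cls a = m := by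
  obtain ⟨x, hx⟩ := H.exm
  obtain ⟨w, hw, hwc, q, k, hq, hk⟩ :=
    FGSev.exists_noncentral_primePow (H.not_center (x := x) (by rw [hx]; exact H.m1.ne'))
  refine ⟨q, w, hq, ⟨k, hk⟩, ?_⟩
  rcases H.cases hwc with e | e
  · exact e
  · exfalso
    have h1 := Nat.le_of_dvd (cls_pos x) (ClassSize.index_centralizer_dvd_of_mem_zpowers hw)
    change cls w ≤ cls x at h1
    rw [hx, e] at h1
    have h2 : m * 1 < m * n := Nat.mul_lt_mul_of_pos_left H.n1 (by linarith [H.m1])
    omega

end Hyp

end Cfsg.Agent.OneMMN
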