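import Cfsg.Agent.OneMMN.SmallP

/-!
Class sizes `1, m, m * n` with `m`, `n` coprime: the structure of the group.
-/

set_option autoImplicit false

namespace Cfsg.Agent.OneMMN

open Subgroup
open scoped Pointwise commutatorElement
open Cfsg.Agent.TwoLargest (cls mem_cent center_le_cent cls_pos center_of_cls_eq_one cent_eq_of_le)
open Cfsg.Agent.FourSizes (El NC)

variable {G : Type*} [Group G] [Finite G] {n p : ℕ}

/-- The structure data: `C` is the abelian normal centraliser of index `p`. -/
structure Struct (p : ℕ) (C : Subgroup G) : Prop where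
  normal : C.Normal
  index : C.index = p
  comm : ∀ a ∈ C, ∀ b ∈ C, Commute a b
  center_le : center G ≤ C
  cent : ∀ c ∈ C, c ∉ center G → centralizer ({c} : Set G) = C
  ncq : ∃ (q : ℕ), q.Prime ∧ q ≠ p ∧ NC q C

variable (H : Hyp G p n)
include H

theorem exists_struct [hp : Fact p.Prime] : ∃ C : Subgroup G, Struct p C := by
  have hpm : p ∣ p := dvd_rfl
  have hm : p = p ^ 1 := (pow_one p).symm
  obtain ⟨x, hxe, hxs⟩ := exists_small_p H
  have hxc := H.not_center (x := x) (by rw [hxs]; exact H.m1.ne')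
  set C := centralizer ({x} : Set G) with hC
  obtain ⟨R, hR, hRC, hRc, hxR⟩ := H.exists_psub hpm hxc (mem_cent.2 (Commute.refl x)) hxe
  obtain ⟨P, hRP⟩ := hR.exists_le_sylow
  have hPc : Nat.card P = p * Nat.card R := by rw [hRc]; exact H.card_sylow_pp hm P
  -- conjugates of `x` under `P` have the same centraliser
  have hconj : ∀ g ∈ (P : Subgroup G), centralizer ({g * x * g⁻¹} : Set G) = C := by
    intro g hg
    have hx'R : g * x * g⁻¹ ∈ R := conj_mem_sylow P hRP hPc hg hxR
    have hx'e : El p (g * x * g⁻¹) := conj_el hxe g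
    have hx'C := hRC hx'R
    have hRx' : ∀ r ∈ R, Commute r (g * x * g⁻¹) := fun r hr => by
      have h1 : g⁻¹ * r * g ∈ R := by
        simpa using conj_mem_sylow P hRP hPc ((P : Subgroup G).inv_mem hg) hr
      have := (mem_cent.1 (hRC h1)).map (MulAut.conj g).toMonoidHom
      simpa [mul_assoc] using this
    have hidx : ¬ p ∣ (R.subgroupOf C).index := by
      intro hd
      obtain ⟨S, hS⟩ := (hR.of_equiv (subgroupOfEquivOfLe hRC).symm).exists_le_sylow
      have h2 := H.card_sylow_cent hpm hxc S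
      rw [← hRc, ← Nat.card_congr (subgroupOfEquivOfLe hRC).toEquiv] at h2
      rw [eq_of_le_of_card_ge hS h2.le] at hd
      exact S.not_dvd_index hd
    have hz : (⟨g * x * g⁻¹, hx'C⟩ : C) ∈ center C := by
      refine mem_center_of_meets fun y => ?_
      obtain ⟨k, hk⟩ := FourSizes.conj_into Fact.out hidx (x := Element.pPart p y)
        ⟨_, Element.orderOf_pPart_eq_pow hp.out y⟩
      refine ⟨k, Subtype.ext ?_⟩
      set y' := (k⁻¹ * Element.pComplPart p y * k : C)
      have h1 : Commute ((k⁻¹ * Element.pPart p y * k : C) : G) (g * x * g⁻¹) := hRx' _ hk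
      have h2 : Commute (y' : G) (g * x * g⁻¹) :=
        (H.commute_in_cent hpm hxe hxc hx'C hx'e y'.2 (by
          rw [orderOf_coe]
          have e : orderOf y' = orderOf (Element.pComplPart p y) := by
            have := orderOf_injective (MulAut.conj k⁻¹).toMonoidHom (MulAut.conj k⁻¹).injective
              (Element.pComplPart p y)
            simpa [y'] using this
          rw [e]; exact Element.coprime_orderOf_pComplPart hp.out y)).symm
      have h3 := (h1.mul_left h2).map (MulAut.conj (k : G)).toMonoidHom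
      have e : (y : G) = (k : G) * (((k⁻¹ * Element.pPart p y * k : C) : G) * (y' : G)) * (k : G)⁻¹ := by
        conv_lhs => rw [← Element.pPart_mul_pComplPart p y]
        simp [y', mul_assoc]
      simp only [Subgroup.coe_mul, InvMemClass.coe_inv]
      rw [e]
      exact h3.eq
    refine (cent_eq_of_le (fun y hy => mem_cent.2 ?_) ?_).symm
    · exact congrArg Subtype.val (mem_center_iff.1 hz ⟨y, hy⟩)
    · exact ClassSize.index_centralizer_conj g x
  haveI hn : C.Normal := by
    refine normalizer_eq_top_iff.1 (top_le_iff.1 fun b _ => ?_)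
    obtain ⟨k, hk, π, hπ, rfl⟩ := ClassSize.mul_eq_univ_of_coprime_index
      (A := C) (B := (P : Subgroup G)) (by
        rw [show C.index = p from hxs]
        exact hp.out.coprime_iff_not_dvd.2 P.not_dvd_index) b
    exact mul_mem (le_normalizer hk) (mem_normalizer_of_cent (hconj π hπ))
  have hidx : C.index = p := hxs
  have hppc : ∀ y, y ∉ center G → (orderOf y).Coprime p → centralizer ({y} : Set G) = C :=
    fun y hy hyo => H.small_pp hm hxe hxc hxs hy hyo
  obtain ⟨q, z, hq, hqp, hzc, hze⟩ := H.exists_nc_pprime hp.out hm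
  have hzo := hze.coprime_prime hq hp.out hqp
  have hzC : z ∈ C := H.pp_mem hm (dvd_of_eq hxs) hzo
  have hcz := hppc z hzc hzo
  have hpall : ∀ t ∈ C, El p t → t ∉ center G → centralizer ({t} : Set G) = C := by
    intro t ht hte htc
    have hall : ∀ w : G, (orderOf w).Coprime p → w ∈ centralizer ({t} : Set G) := fun w hw =>
      mem_cent.2 (H.commute_in_cent hpm hxe hxc ht hte (H.pp_mem hm (dvd_of_eq hxs) hw) hw).symm
    obtain ⟨r, hr, hrn⟩ := Nat.exists_prime_and_dvd H.n1.ne'
    have hrp : r ≠ p := fun e => H.not_dvd_n hp.out hpm (e ▸ hrn)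
    haveI := Fact.mk hr
    obtain ⟨S⟩ : Nonempty (Sylow r G) := inferInstance
    have hSle : ∀ s ∈ (S : Subgroup G), (orderOf s).Coprime p := fun s hs =>
      FourSizes.El.coprime_prime hr hp.out hrp (el_of_mem_psub S.isPGroup' hs)
    have hts : cls t = p := by
      refine (H.cases htc).resolve_right fun hb => S.not_dvd_index ((hrn.trans (dvd_mul_left n p)).trans ?_)
      rw [← hb]
      exact index_dvd_of_le fun s hs => hall s (hSle s hs)
    have htz : Commute t z := (mem_cent.1 (hall z hzo)).symm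
    have e := Element.centralizer_mul_of_coprime htz (El.commute_cop hte hzo)
    have hle : centralizer ({t * z} : Set G) ≤ centralizer {t} := e ▸ inf_le_left
    have htz' : t * z ∉ center G := fun h => htc <| TwoLargest.mem_center_of_le fun g _ =>
      hle (mem_cent.2 (mem_center_iff.1 h g))
    have htzs : cls (t * z) = p := by
      refine (H.cases htz').resolve_right fun hb => S.not_dvd_index ((hrn.trans (dvd_mul_left n p)).trans ?_)
      rw [← hb]
      refine index_dvd_of_le fun s hs => ?_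
      rw [e, hcz]
      exact ⟨hall s (hSle s hs), H.pp_mem hm (dvd_of_eq hxs) (hSle s hs)⟩
    have heq := cent_eq_of_le hle (hts.trans htzs.symm)
    rw [e, hcz] at heq
    exact cent_eq_of_le (heq ▸ inf_le_right) (hidx.trans hts.symm)
  have hab : ∀ a ∈ C, ∀ b ∈ C, Commute a b := by
    intro a ha b hb
    refine Classical.by_contradiction fun hnab => ?_
    obtain ⟨v, hv, r, hr, hve, -, hvn⟩ := FourSizes.exists_part (V := C) (f := b)
      (fun h => hnab (mem_cent.1 (h ha)))
    refine hvn ?_
    by_cases hvc : v ∈ center G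
    · exact fun g _ => mem_cent.2 (mem_center_iff.1 hvc g)
    by_cases hrp : r = p
    · subst hrp; exact (hpall v (zpowers_le.2 hb hv) hve hvc).ge
    · exact (hppc v hvc (FourSizes.El.coprime_prime hr hp.out hrp hve)).ge
  refine ⟨C, hn, hidx, hab, center_le_cent x, fun c hc hcc => ?_, q, hq, hqp, z, hzC, hzc, hze⟩
  refine (cent_eq_of_le (fun y hy => mem_cent.2 (hab y hy c hc)) ?_).symm
  refine ((hp.out.eq_one_or_self_of_dvd _ ?_).resolve_left fun h => hcc (center_of_cls_eq_one h)).trans hidx.symm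
  exact hidx ▸ index_dvd_of_le fun y hy => mem_cent.2 (hab y hy c hc)

variable {C : Subgroup G}

theorem Struct.cent_inf (S : Struct p C) {g : G} (hg : g ∉ C) :
    C ⊓ centralizer ({g} : Set G) = center G := by
  refine le_antisymm (fun c hc => ?_) (le_inf S.center_le (center_le_cent g))
  by_contra hcc
  refine hg ?_
  rw [← S.cent c hc.1 hcc]
  exact mem_cent.2 (mem_cent.1 hc.2).symm

theorem Struct.cls_out [hp : Fact p.Prime] (S : Struct p C) {g : G} (hg : g ∉ C) :
    cls g = p * n ∧ Nat.card (centralizer ({g} : Set G)) = p * Nat.card (center G) := by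
  haveI := S.normal
  have hgc : g ∉ center G := fun h => hg (S.center_le h)
  refine ⟨(H.cases hgc).resolve_left fun hs => ?_, ?_⟩
  · obtain ⟨q, hq, hqp, z, -, hzc, hze⟩ := S.ncq
    obtain ⟨b, hb, hbc, hbe⟩ := H.full hq (fun h => hqp ((Nat.prime_dvd_prime_iff_eq hq hp.out).1 h)) hs hzc hze
    refine hbc ((Struct.cent_inf H S hg).le ⟨?_, hb⟩)
    exact H.pp_mem (α := 1) (pow_one p).symm (dvd_of_eq S.index) (FourSizes.El.coprime_prime hq hp.out hqp hbe)
  · have h1 : C.relIndex (centralizer ({g} : Set G)) = p := by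
      refine (hp.out.eq_one_or_self_of_dvd _ ?_).resolve_left fun h =>
        hg (relIndex_eq_one.1 h (mem_cent.2 (Commute.refl g)))
      exact S.index ▸ relIndex_dvd_index_of_normal C _
    have h2 := card_mul_index (C.subgroupOf (centralizer ({g} : Set G)))
    rw [← inf_subgroupOf_right, Nat.card_congr (subgroupOfEquivOfLe inf_le_right).toEquiv,
      inf_subgroupOf_right] at h2
    rw [← h2, Struct.cent_inf H S hg, mul_comm]
    exact congrArg (· * Nat.card (center G)) h1

theorem Struct.card [hp : Fact p.Prime] (S : Struct p C) :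
    Nat.card C = p * n * Nat.card (center G) := by
  obtain ⟨g, hg⟩ : ∃ g, g ∉ C := by
    by_contra h
    push Not at h
    have := S.index
    rw [(eq_top_iff' C).2 h, index_top] at this
    exact hp.out.ne_one this.symm
  obtain ⟨h1, h2⟩ := Struct.cls_out H S hg
  have h3 := card_mul_index (centralizer ({g} : Set G))
  rw [h2, show (centralizer ({g} : Set G)).index = p * n from h1, ← card_mul_index C, S.index] at h3
  refine Nat.eq_of_mul_eq_mul_right hp.out.pos (h3.symm.trans ?_)
  ring

/-- The elements of order prime to `p` form a normal complement, and `p ∣ n - 1`. -/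
theorem Struct.complement [hp : Fact p.Prime] (S : Struct p C) :
    (∃ N : Subgroup G, N.Normal ∧ (Nat.card N).Coprime p ∧ ∃ a : ℕ, N.index = p ^ a) ∧ p ∣ n - 1 := by
  haveI := S.normal
  have hm : p = p ^ 1 := (pow_one p).symm
  let K : Subgroup G :=
    { carrier := {w | (orderOf w).Coprime p}
      one_mem' := by simp
      mul_mem' := fun {a b} ha hb => by
        have hab := S.comm a (H.pp_mem hm (dvd_of_eq S.index) ha) b (H.pp_mem hm (dvd_of_eq S.index) hb)
        exact Nat.Coprime.coprime_dvd_left (hab.orderOf_mul_dvd_lcm.trans (Nat.lcm_dvd_mul _ _))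
          (Nat.Coprime.mul_left ha hb)
      inv_mem' := fun {a} ha => by simpa using ha }
  haveI hK : K.Normal := ⟨fun w hw b => by
    show (orderOf _).Coprime p
    rw [show orderOf (b * w * b⁻¹) = orderOf w from
      orderOf_injective (MulAut.conj b).toMonoidHom (MulAut.conj b).injective w]
    exact hw⟩
  have hKc : (Nat.card K).Coprime p := Element.coprime_card_of_forall_orderOf hp.out fun w => by
    rw [← orderOf_coe]; exact w.2
  obtain ⟨e, he⟩ : ∃ e, K.index = p ^ e := by
    refine ⟨_, Nat.eq_prime_pow_of_unique_prime_dvd index_ne_zero_of_finite fun {d} hd hdK => ?_⟩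
    by_contra hne
    haveI := Fact.mk hd
    obtain ⟨T⟩ : Nonempty (Sylow d G) := inferInstance
    exact T.not_dvd_index (hdK.trans (index_dvd_of_le fun y hy =>
      FourSizes.El.coprime_prime hd hp.out hne (el_of_mem_psub T.isPGroup' hy)))
  refine ⟨⟨K, hK, hKc, e, he⟩, ?_⟩
  -- counting
  have hCc := Struct.card H S
  set z := Nat.card ↥(K ⊓ center G) with hz
  obtain ⟨f, hf⟩ : ∃ f, Nat.card (center G) = z * p ^ f := by
    have h := card_mul_index (K.subgroupOf (center G))
    rw [← inf_subgroupOf_right, Nat.card_congr (subgroupOfEquivOfLe inf_le_right).toEquiv,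
      inf_subgroupOf_right] at h
    have h1 : K.relIndex (center G) ∣ p ^ e := he ▸ relIndex_dvd_index_of_normal K _
    obtain ⟨f, -, hf⟩ := (Nat.dvd_prime_pow hp.out).1 h1
    exact ⟨f, by rw [← hf, hz]; exact h.symm⟩
  have hG : Nat.card K * p ^ e = n * z * p ^ (f + 2) := by
    rw [← he, card_mul_index, ← card_mul_index C, hCc, S.index, hf]
    ring
  have hn' : n.Coprime p := H.cop.symm
  have hzp : z.Coprime p := hKc.coprime_dvd_left (card_dvd_of_le inf_le_left)
  have hKn : Nat.card K = n * z := Nat.dvd_antisymm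
    ((hKc.pow_right (f + 2)).dvd_of_dvd_mul_right (hG ▸ dvd_mul_right _ _))
    (((Nat.Coprime.mul_left hn' hzp).pow_right e).dvd_of_dvd_mul_right (hG ▸ dvd_mul_right _ _))
  -- fixed points
  obtain ⟨P⟩ : Nonempty (Sylow p G) := inferInstance
  obtain ⟨g, hgP, hgC⟩ : ∃ g ∈ (P : Subgroup G), g ∉ C := by
    by_contra hall
    push Not at hall
    have h1 := index_dvd_of_le (fun x hx => hall x hx : (P : Subgroup G) ≤ C)
    rw [S.index] at h1
    exact P.not_dvd_index h1
  let ρ : zpowers g →* MulAut K := (MulAut.conjNormal (H := K)).comp (zpowers g).subtype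
  letI : MulAction (zpowers g) K := MulAction.compHom K ρ
  have hZ : IsPGroup p (zpowers g) := P.isPGroup'.to_le (zpowers_le.2 hgP)
  have hmod := hZ.card_modEq_card_fixedPoints K
  have hfix : Nat.card (MulAction.fixedPoints (zpowers g) K) = z := by
    refine Nat.card_congr ⟨fun k => ⟨(k.1 : G), k.1.2, ?_⟩, fun k => ⟨⟨(k : G), k.2.1⟩, fun a => ?_⟩,
      fun k => rfl, fun k => rfl⟩
    · have h1 := congrArg (fun y : K => (y : G)) (k.2 ⟨g, mem_zpowers g⟩)
      change g * ((k.1 : K) : G) * g⁻¹ = ((k.1 : K) : G) at h1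
      exact (Struct.cent_inf H S hgC).le ⟨H.pp_mem hm (dvd_of_eq S.index) k.1.2,
        mem_cent.2 (mul_inv_eq_iff_eq_mul.1 h1 : g * ((k.1 : K) : G) = _).symm⟩
    · refine Subtype.ext ?_
      show (a : G) * (k : G) * (a : G)⁻¹ = (k : G)
      rw [mem_center_iff.1 k.2.2 (a : G), mul_inv_cancel_right]
  rw [hKn, hfix] at hmod
  have h1 : 1 ≡ n [MOD p] := by
    refine (Nat.ModEq.cancel_right_of_coprime (c := z) ?_ ?_).symm
    · rw [Nat.gcd_comm]; exact hzp
    · simpa using hmod
  exact (Nat.modEq_iff_dvd' (by linarith [H.n1])).1 h1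

theorem Struct.card_commutator [hp : Fact p.Prime] (S : Struct p C) (P : Sylow p G) :
    Nat.card (commutator (P : Subgroup G)) = p := by
  haveI := S.normal
  obtain ⟨x, hx⟩ := H.exm
  have hxc := H.not_center (x := x) (by rw [hx]; exact H.m1.ne')
  obtain ⟨q, hq, hqp, z, hzC, hzc, hze⟩ := S.ncq
  have hcz := S.cent z hzC hzc
  set R := (P : Subgroup G) ⊓ C with hRdef
  have hRc : Nat.card R = cP G p p := by
    rw [hRdef, ← hcz]
    exact H.card_inf dvd_rfl P hzc (hcz.symm ▸ (normalizer_eq_top_iff.2 S.normal).symm ▸ le_top)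
  have hPc : Nat.card P = p * Nat.card R := by rw [hRc]; exact H.card_sylow_pp (α := 1) (pow_one p).symm P
  obtain ⟨g₀, hg₀P, hg₀C⟩ : ∃ g ∈ (P : Subgroup G), g ∉ C := by
    by_contra hall
    push Not at hall
    have h1 := index_dvd_of_le (fun x hx => hall x hx : (P : Subgroup G) ≤ C)
    rw [S.index] at h1
    exact P.not_dvd_index h1
  have hg₀c : g₀ ∉ center G := fun h => hg₀C (S.center_le h)
  obtain ⟨k, Q, hQP, hQg, hQc, hgQ⟩ :=
    H.exists_conj_full dvd_rfl P hg₀c (el_of_mem_psub P.isPGroup' hg₀P)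
  set g := k * g₀ * k⁻¹
  have hgC : g ∉ C := fun h => hg₀C (by simpa [g, mul_assoc] using S.normal.conj_mem _ h k⁻¹)
  have hgP : g ∈ (P : Subgroup G) := hQP hgQ
  have hinf : R ⊓ Q ≤ center G := fun t ht =>
    (Struct.cent_inf H S hgC).le ⟨ht.1.2, hQg ht.2⟩
  have hRz := card_eq_p_mul P inf_le_left hQP hPc (hRc.trans hQc.symm) hinf
    (hRc.symm ▸ H.center_card_lt dvd_rfl P)
  have hRn : ¬ R ≤ center G := fun hle => by
    have h2 := card_le_of_le (le_inf inf_le_left hle : R ≤ (P : Subgroup G) ⊓ center G)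
    rw [hRc] at h2
    exact absurd (H.center_card_lt dvd_rfl P) h2.not_gt
  obtain ⟨a, haR, hac, hap, ha2⟩ := exists_u P (inf_le_left : R ≤ _)
    (fun y hy d hd => conj_mem_sylow P inf_le_left hPc hy hd) hRn
  obtain ⟨-, hspan⟩ := exists_of_card P (inf_le_left : R ≤ _)
    (le_inf inf_le_left (inf_le_right.trans S.center_le)) hRz haR hac
  set ζ := g * a * g⁻¹ * a⁻¹ with hζ
  have hζc : ζ ∈ center G := ha2 g hgP
  have hζ1 : ζ ≠ 1 := fun h => hgC (by
    rw [← S.cent a haR.2 hac]
    exact mem_cent.2 (mul_inv_eq_iff_eq_mul.1 (mul_inv_eq_one.1 h)))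
  have hζp : ζ ^ p = 1 := by
    have h2 : (ζ * a) ^ p = g * a ^ p * g⁻¹ := by rw [hζ, inv_mul_cancel_right, conj_pow]
    rw [Commute.mul_pow (mem_center_iff.1 hζc a).symm, mem_center_iff.1 hap g, mul_inv_cancel_right] at h2
    exact mul_eq_right.1 h2
  set ζ' : (P : Subgroup G) :=
    ⟨ζ, (P : Subgroup G).mul_mem ((P : Subgroup G).mul_mem ((P : Subgroup G).mul_mem hgP haR.1)
      ((P : Subgroup G).inv_mem hgP)) ((P : Subgroup G).inv_mem haR.1)⟩
  have hord : orderOf ζ' = p := orderOf_eq_prime (Subtype.ext hζp) fun h => hζ1 (congrArg Subtype.val h)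
  haveI hZn : (zpowers ζ').Normal := ⟨fun y hy b => by
    obtain ⟨i, rfl⟩ := hy
    have : (b : G) * ζ ^ i * (b : G)⁻¹ = ζ ^ i := by
      rw [mem_center_iff.1 (zpow_mem hζc i) (b : G), mul_inv_cancel_right]
    exact ⟨i, Subtype.ext (by simpa [ζ'] using this.symm)⟩⟩
  set π := QuotientGroup.mk' (zpowers ζ')
  set g' : (P : Subgroup G) := ⟨g, hgP⟩
  have hcommg : ∀ r : (P : Subgroup G), (r : G) ∈ R → Commute (π g') (π r) := by
    intro r hr
    obtain ⟨j, c, hc, hj⟩ := hspan _ hr
    show π g' * π r = π r * π g'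
    rw [← map_mul, ← map_mul, eq_comm]
    refine (QuotientGroup.eq (s := zpowers ζ')).2 ⟨j, Subtype.ext ?_⟩
    have e : g * a ^ j * g⁻¹ = ζ ^ j * a ^ j := by
      rw [← conj_zpow, show g * a * g⁻¹ = ζ * a by rw [hζ, inv_mul_cancel_right],
        Commute.mul_zpow (mem_center_iff.1 hζc a).symm]
    have e2 : g * (r : G) = ζ ^ j * (r : G) * g := by
      rw [hj, ← mul_assoc, eq_mul_inv_iff_mul_eq.1 e.symm |>.symm]
      simp only [mul_assoc]
      rw [mem_center_iff.1 hc g]
    show ζ ^ j = ((r : G) * g)⁻¹ * (g * (r : G))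
    rw [e2, mul_assoc (ζ ^ j), ← mem_center_iff.1 (zpow_mem hζc j) ((r : G) * g), inv_mul_cancel_left]
  obtain ⟨hnorm, hidx⟩ := conj_mem_of_index P (inf_le_left : R ≤ _) hPc
  haveI := hnorm
  have hdec : ∀ y : (P : Subgroup G), ∃ (r : (P : Subgroup G)) (j : ℤ), (r : G) ∈ R ∧ y = r * g' ^ j := by
    intro y
    obtain ⟨j, hj⟩ := mem_zpowers_of_prime_card
      (show Nat.card ((P : Subgroup G) ⧸ R.subgroupOf (P : Subgroup G)) = p from hidx)
      (g := QuotientGroup.mk' (R.subgroupOf (P : Subgroup G)) g')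
      (g' := QuotientGroup.mk' (R.subgroupOf (P : Subgroup G)) y)
      (fun h0 => hgC ((QuotientGroup.eq_one_iff (N := R.subgroupOf (P : Subgroup G)) g').1 h0 : (g : G) ∈ R).2)
    refine ⟨y * (g' ^ j)⁻¹, j, ?_, by rw [inv_mul_cancel_right]⟩
    have h1 : QuotientGroup.mk' (R.subgroupOf (P : Subgroup G)) (y * (g' ^ j)⁻¹) = 1 := by
      rw [map_mul, map_inv, map_zpow, mul_inv_eq_one]; exact hj.symm
    exact (QuotientGroup.eq_one_iff (N := R.subgroupOf (P : Subgroup G)) _).1 h1
  have hle : commutator (P : Subgroup G) ≤ zpowers ζ' := by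
    rw [_root_.commutator_def, commutator_le]
    intro y₁ _ y₂ _
    obtain ⟨r₁, j₁, hr₁, rfl⟩ := hdec y₁
    obtain ⟨r₂, j₂, hr₂, rfl⟩ := hdec y₂
    rw [← QuotientGroup.eq_one_iff]
    show π ⁅_, _⁆ = 1
    rw [map_commutatorElement, commutatorElement_eq_one_iff_commute]
    simp only [map_mul, map_zpow]
    have hrr : Commute (π r₁) (π r₂) := Commute.map (Subtype.ext (S.comm _ hr₁.2 _ hr₂.2).eq) π
    exact (hrr.mul_right ((hcommg r₁ hr₁).symm.zpow_right j₂)).mul_left
      (((hcommg r₂ hr₂).zpow_left j₁).mul_right ((Commute.refl _).zpow_zpow j₁ j₂))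
  have heq : commutator (P : Subgroup G) = zpowers ζ' := by
    refine le_antisymm hle (zpowers_le.2 ?_)
    rw [_root_.commutator_def]
    have := commutator_mem_commutator (mem_top g') (mem_top (⟨a, haR.1⟩ : (P : Subgroup G)))
    rw [commutatorElement_def] at this
    exact this
  rw [heq, Nat.card_zpowers, hord]

end Cfsg.Agent.OneMMN
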