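import Cfsg.Agent.OneMMN.Pieces

/-!
Class sizes `1, m, m * n`: only one prime divides `m`.
-/

set_option autoImplicit false

namespace Cfsg.Agent.OneMMN

open Subgroup
open scoped Pointwise
open Cfsg.Agent.TwoLargest (cls mem_cent center_le_cent cls_pos center_of_cls_eq_one cent_eq_of_le)
open Cfsg.Agent.FourSizes (El NC)

variable {G : Type*} [Group G] [Finite G] {m n : ℕ}

/-- A big piece: abelian, containing a noncentral `q`-element, `q ∤ m`. -/
structure Piece (m : ℕ) (C : Subgroup G) (q : ℕ) : Prop where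
  qprime : q.Prime
  qm : ¬ q ∣ m
  comm : ∀ a ∈ C, ∀ b ∈ C, Commute a b
  eq_cent : ∀ t : ℕ, t.Prime → t ∣ m → ∀ v ∈ C, El t v → v ∉ center G → centralizer ({v} : Set G) = C
  nc : ∀ t : ℕ, t.Prime → t ∣ m → NC t C
  ncq : NC q C
  sylow : ∀ t : ℕ, t.Prime → t ∣ m → ∃ T : Sylow t G, (T : Subgroup G) ≤ normalizer (C : Set G)

variable (H : Hyp G m n)
include H

variable {C : Subgroup G} {q : ℕ}

/-- A `t`-element, `t ∣ m`, fixing a noncentral `r`-element of the piece, `r ∤ m`, is in it. -/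
theorem Piece.fix_q (B : Piece m C q) {t : ℕ} [ht : Fact t.Prime] (htm : t ∣ m) {g : G}
    (hg : g ∈ normalizer (C : Set G)) (hge : El t g) {a : G} (haC : a ∈ C) (hao : (orderOf a).Coprime t)
    (hac : a ∉ center G) (hga : Commute g a) : g ∈ C := by
  by_contra hgC
  obtain ⟨T, hT⟩ := B.sylow t ht.out htm
  obtain ⟨k, hk⟩ := hge
  obtain ⟨T', hgT', hT'⟩ := PSingular.exists_sylow_mem_le (p := t)
    (fun hd => T.not_dvd_index (hd.trans (index_dvd_of_le hT))) hg hk
  obtain ⟨w, hwC, hwc, hwe⟩ := B.nc t ht.out htm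
  have hwC' := B.eq_cent t ht.out htm w hwC hwe hwc
  exact hac (H.fix_mem htm T' hwe hwc (hwC'.symm ▸ hT') hgT' (hwC'.symm ▸ hgC) (hwC'.symm ▸ haC) hao hga)

/-- Nothing of prime order modulo the piece commutes with a `p`-element outside it. -/
theorem Piece.no_commute (B : Piece m C q) {p t : ℕ} [hp : Fact p.Prime] (hpm : p ∣ m) (ht : t.Prime)
    (htp : t ≠ p) {g h : G} (hg : g ∈ normalizer (C : Set G)) (hge : El p g) (hgC : g ∉ C)
    (hh : h ∈ normalizer (C : Set G)) (hhC : h ∉ C) (hht : h ^ t ∈ C)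
    (hgh : g * h * g⁻¹ * h⁻¹ ∈ C) : False := by
  obtain ⟨T, hT⟩ := B.sylow p hp.out hpm
  obtain ⟨k, hk⟩ := hge
  obtain ⟨T', hgT', hT'⟩ := PSingular.exists_sylow_mem_le (p := p)
    (fun hd => T.not_dvd_index (hd.trans (index_dvd_of_le hT))) hg hk
  obtain ⟨w, hwC, hwc, hwe⟩ := B.nc p hp.out hpm
  have hwC' := B.eq_cent p hp.out hpm w hwC hwe hwc
  obtain ⟨a, ha, hac, -, ha2⟩ := exists_u T' (D := (T' : Subgroup G) ⊓ C) inf_le_left
    (fun x hx d hd => ⟨(T' : Subgroup G).mul_mem ((T' : Subgroup G).mul_mem hx hd.1) ((T' : Subgroup G).inv_mem hx),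
      ((mem_normalizer_iff.1 (hT' hx)) d).1 hd.2⟩) fun hle => by
    have h1 := H.card_inf hpm T' hwc (hwC'.symm ▸ hT')
    rw [hwC'] at h1
    have h2 := card_le_of_le (le_inf inf_le_left hle : (T' : Subgroup G) ⊓ C ≤ (T' : Subgroup G) ⊓ center G)
    rw [h1] at h2
    exact absurd (H.center_card_lt hpm T') h2.not_gt
  have hae : El p a := el_of_mem_psub T'.isPGroup' ha.1
  have hCa := B.eq_cent p hp.out hpm a ha.2 hae hac
  set ζ := g * a * g⁻¹ * a⁻¹ with hζ
  have hζc : ζ ∈ center G := ha2 g hgT'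
  have hbC : h * a * h⁻¹ ∈ C := ((mem_normalizer_iff.1 hh) a).1 ha.2
  have hgb : g * (h * a * h⁻¹) * g⁻¹ = ζ * (h * a * h⁻¹) := by
    set c := g * h * g⁻¹ * h⁻¹ with hc
    have e : h * (g * a * g⁻¹) * h⁻¹ = ζ * (h * a * h⁻¹) := by
      rw [show g * a * g⁻¹ = ζ * a by rw [hζ, inv_mul_cancel_right], ← mul_assoc h,
        mem_center_iff.1 hζc h]
      simp only [mul_assoc]
    calc g * (h * a * h⁻¹) * g⁻¹ = c * (h * (g * a * g⁻¹) * h⁻¹) * c⁻¹ := by rw [hc]; group
      _ = c * (ζ * (h * a * h⁻¹)) * c⁻¹ := by rw [e]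
      _ = ζ * (h * a * h⁻¹) := by
        rw [(B.comm c hgh _ (C.mul_mem (hCa ▸ center_le_cent a hζc) hbC)).eq, mul_inv_cancel_right]
  set d := h * a * h⁻¹ * a⁻¹ with hd
  have hdC : d ∈ C := C.mul_mem hbC (C.inv_mem ha.2)
  have hde : El p d := by
    obtain ⟨i, hi⟩ := conj_el hae h
    obtain ⟨j, hj⟩ := hae
    have := ((B.comm _ hbC _ ha.2).inv_right).orderOf_mul_dvd_lcm
    rw [orderOf_inv, hi, hj] at this
    obtain ⟨r, -, hr⟩ := (Nat.dvd_prime_pow hp.out).1
      ((this.trans (Nat.lcm_dvd_mul _ _)).trans (dvd_of_eq (pow_add p i j).symm))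
    exact ⟨r, hr⟩
  have hgd : Commute g d := by
    refine mul_inv_eq_iff_eq_mul.1 ?_
    calc g * d * g⁻¹ = (g * (h * a * h⁻¹) * g⁻¹) * (g * a * g⁻¹)⁻¹ := by rw [hd]; group
      _ = ζ * (h * a * h⁻¹) * (ζ * a)⁻¹ := by rw [hgb, hζ, inv_mul_cancel_right]
      _ = h * a * h⁻¹ * a⁻¹ := by rw [mem_center_iff.1 hζc a |>.symm, mul_inv_rev, ← mem_center_iff.1 hζc]; group
      _ = d := hd.symm
  have hdc : d ∈ center G := by
    by_contra hdc
    exact hgC (B.eq_cent p hp.out hpm d hdC hde hdc ▸ mem_cent.2 hgd)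
  have hit : ∀ l : ℕ, h ^ l * a * (h ^ l)⁻¹ = d ^ l * a := by
    intro l
    induction l with
    | zero => simp
    | succ l ih =>
      calc h ^ (l + 1) * a * (h ^ (l + 1))⁻¹ = h * (h ^ l * a * (h ^ l)⁻¹) * h⁻¹ := by
            rw [pow_succ', mul_inv_rev]; simp only [mul_assoc]
        _ = h * d ^ l * (a * h⁻¹) := by rw [ih]; simp only [mul_assoc]
        _ = d ^ l * (h * a * h⁻¹) := by rw [mem_center_iff.1 (pow_mem hdc l) h]; simp only [mul_assoc]
        _ = d ^ (l + 1) * a := by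
            rw [pow_succ, mul_assoc (d ^ l) d a, show d * a = h * a * h⁻¹ by rw [hd, inv_mul_cancel_right]]
  have hdt : d ^ t = 1 := by
    have h1 := hit t
    rw [(B.comm _ hht a ha.2).eq, mul_inv_cancel_right] at h1
    exact mul_eq_right.1 h1.symm
  have hd1 : d = 1 := el_cop hp.out hde
    (((Nat.coprime_primes ht hp.out).2 htp).coprime_dvd_left (orderOf_dvd_of_pow_eq_one hdt))
  exact hhC (hCa ▸ mem_cent.2 (mul_inv_eq_iff_eq_mul.1 (mul_inv_eq_one.1 hd1)))

theorem Piece.no_norm (B : Piece m C q) {p s t : ℕ} [hp : Fact p.Prime] (hpm : p ∣ m) (hs : s.Prime)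
    (hsm : s ∣ m) (hsp : s ≠ p) (ht : t.Prime) (htp : t ≠ p) {g h : G}
    (hg : g ∈ normalizer (C : Set G)) (hge : El p g) (hgC : g ∉ C) (hgp : g ^ p ∈ C)
    (hh : h ∈ normalizer (C : Set G)) (hhe : El t h) (hhC : h ∉ C) (hht : h ^ t ∈ C) {i : ℕ}
    (hi : (g ^ i)⁻¹ * (h * g * h⁻¹) ∈ C) : False := by
  by_cases hi1 : (i : ZMod p) = 1
  · -- the commuting case
    refine B.no_commute H hpm ht htp hg hge hgC hh hhC hht ?_
    have h1 : g⁻¹ * (h * g * h⁻¹) ∈ C := by
      obtain ⟨c, hc⟩ := (ZMod.intCast_zmod_eq_zero_iff_dvd ((i : ℤ) - 1) p).1 (by push_cast; rw [hi1, sub_self])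
      have e : g⁻¹ * (h * g * h⁻¹) = (g ^ p) ^ c * ((g ^ i)⁻¹ * (h * g * h⁻¹)) := by
        rw [← zpow_natCast g p, ← zpow_mul, ← hc, zpow_sub_one, zpow_natCast]
        group
      rw [e]
      exact C.mul_mem (C.zpow_mem hgp _) hi
    have h2 : h * g * h⁻¹ * g⁻¹ ∈ C := by
      have := ((mem_normalizer_iff.1 hg) _).1 h1
      simpa [mul_assoc] using this
    have := C.inv_mem h2
    simpa [mul_assoc] using this
  obtain ⟨r, hr, hrp, hrt, hnc, hfg, hfk⟩ : ∃ r : ℕ, r.Prime ∧ r ≠ p ∧ r ≠ t ∧ NC r C ∧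
      (∀ a ∈ C, El r a → Commute g a → a ∈ center G) ∧
      (∀ (j : ℕ), ∀ a ∈ C, El r a → Commute (g ^ j * h * (g ^ j)⁻¹) a → a ∈ center G) := by
    have hkC : ∀ j : ℕ, g ^ j * h * (g ^ j)⁻¹ ∉ C := fun j hk =>
      hhC (((mem_normalizer_iff.1 (pow_mem hg j)) h).2 hk)
    by_cases htm : t ∣ m
    · haveI := Fact.mk ht
      have hqp : q ≠ p := fun e => B.qm (e ▸ hpm)
      have hqt : q ≠ t := fun e => B.qm (e ▸ htm)
      refine ⟨q, B.qprime, hqp, hqt, B.ncq, fun a ha hae hga => ?_, fun j a ha hae hka => ?_⟩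
      · by_contra hac
        exact hgC (B.fix_q H hpm hg hge ha (hae.coprime_prime B.qprime hp.out hqp) hac hga)
      · by_contra hac
        exact hkC j (B.fix_q H htm (mul_mem (mul_mem (pow_mem hg j) hh) (inv_mem (pow_mem hg j)))
          (conj_el hhe _) ha (hae.coprime_prime B.qprime ht hqt) hac hka)
    · refine ⟨s, hs, hsp, fun e => htm (e ▸ hsm), B.nc s hs hsm, fun a ha hae hga => ?_,
        fun j a ha hae hka => ?_⟩
      · by_contra hac
        exact hgC (B.eq_cent s hs hsm a ha hae hac ▸ mem_cent.2 hga)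
      · by_contra hac
        exact hkC j (B.eq_cent s hs hsm a ha hae hac ▸ mem_cent.2 hka)
  let V : Subgroup G :=
    { carrier := {a | a ∈ C ∧ El r a}
      one_mem' := ⟨one_mem _, 0, by simp⟩
      mul_mem' := fun {a b} ha hb => ⟨mul_mem ha.1 hb.1, by
        obtain ⟨i, hi⟩ := ha.2
        obtain ⟨j, hj⟩ := hb.2
        have := (B.comm a ha.1 b hb.1).orderOf_mul_dvd_lcm
        obtain ⟨e, -, he⟩ := (Nat.dvd_prime_pow hr).1
          ((this.trans (Nat.lcm_dvd_mul _ _)).trans (by rw [hi, hj, ← pow_add]))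
        exact ⟨e, he⟩⟩
      inv_mem' := fun {a} ha => ⟨inv_mem ha.1, by simpa [El] using ha.2⟩ }
  letI : CommGroup V :=
    { (inferInstance : Group V) with
      mul_comm := fun a b => Subtype.ext (B.comm a a.2.1 b b.2.1).eq }
  set N := normalizer (C : Set G)
  have hNV : N ≤ normalizer (V : Set G) := fun x hx => mem_normalizer_iff.2 fun a => by
    refine ⟨fun ha => ⟨((mem_normalizer_iff.1 hx) a).1 ha.1, conj_el ha.2 x⟩,
      fun ha => ⟨((mem_normalizer_iff.1 hx) a).2 ha.1, ?_⟩⟩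
    have := conj_el ha.2 x⁻¹
    simpa [mul_assoc] using this
  let ρ : N →* MulAut V := (normalizerMonoidHom V).comp (inclusion hNV)
  have hρ : ∀ (x : N) (v : V), ((ρ x v : V) : G) = (x : G) * v * (x : G)⁻¹ := fun x v => rfl
  have hρ1 : ∀ x : N, (x : G) ∈ C → ρ x = 1 := fun x hx => MulEquiv.ext fun v =>
    Subtype.ext (by rw [hρ, (B.comm _ hx v v.2.1).eq, mul_inv_cancel_right]; rfl)
  set g' : N := ⟨g, hg⟩
  set h' : N := ⟨h, hh⟩
  have hfix : ∀ x : N, (∀ a ∈ C, El r a → Commute (x : G) a → a ∈ center G) →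
      ∀ v, ρ x v = v → v ∈ (center G).subgroupOf V := fun x hx v hv =>
    hx v v.2.1 v.2.2 (mul_inv_eq_iff_eq_mul.1 ((hρ x v).symm.trans (congrArg Subtype.val hv)))
  obtain ⟨a, haC, hac, hae⟩ := hnc
  have hg1 : ρ g' ≠ 1 := fun h1 => hac (hfg a haC hae (mul_inv_eq_iff_eq_mul.1
    ((hρ g' ⟨a, haC, hae⟩).symm.trans (congrArg Subtype.val
      (show ρ g' (⟨a, haC, hae⟩ : V) = ⟨a, haC, hae⟩ by rw [h1]; rfl)))))
  have hconj : ρ h' * ρ g' * (ρ h')⁻¹ = ρ g' ^ i := by
    have h1 := hρ1 ((g' ^ i)⁻¹ * (h' * g' * h'⁻¹)) hi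
    simp only [map_mul, map_inv, map_pow] at h1
    exact (inv_mul_eq_one.1 h1).symm
  have hmem := pow_mem_of_normalize ht (ρ g') (ρ h') (by rw [← map_pow]; exact hρ1 _ hgp)
    (by rw [← map_pow]; exact hρ1 _ hht) hconj hi1 hg1 ((center G).subgroupOf V) (hfix g' hfg)
    (fun j => by rw [← map_pow, ← map_inv, ← map_mul, ← map_mul]; exact hfix _ (hfk j)) ⟨a, haC, hae⟩
  exact hac (center_of_pow hr hp.out hrp hae (by simpa [mem_subgroupOf] using hmem))

/-- A piece with two primes is absurd. -/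
theorem Piece.absurd_two (B : Piece m C q) {p s : ℕ} [hp : Fact p.Prime] [hs : Fact s.Prime]
    (hpm : p ∣ m) (hsm : s ∣ m) (hsp : s ≠ p) : False := by
  set N := normalizer (C : Set G) with hN
  haveI hCn : (C.subgroupOf N).Normal :=
    (normal_subgroupOf_iff_le_normalizer le_normalizer).2 le_rfl
  let π := QuotientGroup.mk' (C.subgroupOf N)
  have hπ : ∀ x : N, π x = 1 ↔ (x : G) ∈ C := fun x => QuotientGroup.eq_one_iff (N := C.subgroupOf N) x
  -- Sylow subgroups of the quotient have prime order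
  have hcard : ∀ (l : ℕ) [Fact l.Prime], l ∣ m → ∀ L : Sylow l (N ⧸ C.subgroupOf N), Nat.card L = l := by
    intro l hl hlm L
    obtain ⟨l', hl', hl'm, hl'l⟩ : ∃ l', l'.Prime ∧ l' ∣ m ∧ l' ≠ l := by
      by_cases h : l = p
      · exact ⟨s, hs.out, hsm, h ▸ hsp⟩
      · exact ⟨p, hp.out, hpm, Ne.symm h⟩
    obtain ⟨T, hT⟩ := B.sylow l hl.out hlm
    obtain ⟨w, hwC, hwc, hwe⟩ := B.nc l hl.out hlm
    have hwC' := B.eq_cent l hl.out hlm w hwC hwe hwc
    obtain ⟨R⟩ : Nonempty (Sylow l (centralizer ({w} : Set G))) := inferInstance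
    have hCc : (Nat.card C).factorization l = (Nat.card G).factorization l - m.factorization l := by
      refine Nat.pow_right_injective hl.out.two_le (show l ^ _ = l ^ _ from ?_)
      rw [← cP, ← H.card_sylow_cent hlm hwc R, Sylow.card_eq_multiplicity, hwC']
    have hG : (Nat.card G).factorization l = (Nat.card G).factorization l - m.factorization l + 1 := by
      refine Nat.pow_right_injective hl.out.two_le (show l ^ _ = l ^ _ from ?_)
      rw [pow_succ', ← cP, ← H.card_sylow_two hlm hl' hl'm hl'l T, Sylow.card_eq_multiplicity]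
    have hNc : (Nat.card G).factorization l ≤ (Nat.card N).factorization l := by
      rw [← hl.out.pow_dvd_iff_le_factorization Nat.card_pos.ne', ← Sylow.card_eq_multiplicity T]
      exact card_dvd_of_le hT
    have hNle : (Nat.card N).factorization l ≤ (Nat.card G).factorization l :=
      (Nat.factorization_le_iff_dvd Nat.card_pos.ne' Nat.card_pos.ne').2 (card_subgroup_dvd_card N) l
    have hmul := congrArg (fun k => Nat.factorization k l)
      (card_eq_card_quotient_mul_card_subgroup (C.subgroupOf N))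
    rw [Nat.card_congr (subgroupOfEquivOfLe (le_normalizer : C ≤ N)).toEquiv] at hmul
    simp only [Nat.factorization_mul Nat.card_pos.ne' Nat.card_pos.ne', Finsupp.add_apply] at hmul
    rw [Sylow.card_eq_multiplicity, show (Nat.card (N ⧸ C.subgroupOf N)).factorization l = 1 by omega, pow_one]
  -- and are self-normalising
  have hself : ∀ (l : ℕ) [Fact l.Prime], l ∣ m → ∀ L : Sylow l (N ⧸ C.subgroupOf N),
      normalizer ((L : Subgroup (N ⧸ C.subgroupOf N)) : Set (N ⧸ C.subgroupOf N)) ≤ L := by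
    intro l hl hlm L x hx
    obtain ⟨l', hl', hl'm, hl'l⟩ : ∃ l', l'.Prime ∧ l' ∣ m ∧ l' ≠ l := by
      by_cases h : l = p
      · exact ⟨s, hs.out, hsm, h ▸ hsp⟩
      · exact ⟨p, hp.out, hpm, Ne.symm h⟩
    have hLc := hcard l hlm L
    haveI : Nontrivial L := Finite.one_lt_card_iff_nontrivial.1 (by rw [hLc]; exact hl.out.one_lt)
    obtain ⟨⟨γ, hγL⟩, hγ1⟩ := exists_ne (1 : L)
    obtain ⟨kγ, hkγ⟩ := el_of_mem_psub L.isPGroup' hγL
    obtain ⟨g, hgγ, kg, hkg⟩ := Element.exists_pElement_preimage hl.out π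
      (QuotientGroup.mk'_surjective _) (y := γ) hkγ
    have hgC : (g : G) ∉ C := fun h => hγ1 (Subtype.ext (hgγ.symm.trans ((hπ g).2 h)))
    have hgl : ((g : G)) ^ l ∈ C := by
      rw [← SubmonoidClass.coe_pow, ← hπ, map_pow, hgγ, ← hLc]
      exact congrArg Subtype.val (pow_card_eq_one' (x := (⟨γ, hγL⟩ : L)))
    have hgen : (L : Subgroup (N ⧸ C.subgroupOf N)) = zpowers γ := by
      refine (eq_of_le_of_card_ge (zpowers_le.2 hγL) ?_).symm
      rw [hLc, Nat.card_zpowers]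
      refine Nat.le_of_dvd (orderOf_pos γ) ?_
      rw [← orderOf_mk γ hγL]
      exact (el_of_mem_psub L.isPGroup' hγL).elim fun k hk => by
        rcases k.eq_zero_or_pos with rfl | hk0
        · exact absurd (Subtype.ext (orderOf_eq_one_iff.1 (by simpa using hk))) hγ1
        · rw [orderOf_mk, hk]; exact dvd_pow_self l hk0.ne'
    by_cases hxl : El l x
    · obtain ⟨k, hk⟩ := hxl
      have hXp : IsPGroup l (zpowers x) := Element.isPGroup_zpowers_iff.2 ⟨k, hk⟩
      have := L.is_maximal' (IsPGroup.to_sup_of_normal_right' hXp L.isPGroup' (zpowers_le.2 hx)) le_sup_right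
      rw [← this]
      exact mem_sup_left (mem_zpowers x)
    exfalso
    obtain ⟨t, ht, htl, htx⟩ : ∃ t : ℕ, t.Prime ∧ t ≠ l ∧ t ∣ orderOf x := by
      by_contra hno
      push Not at hno
      exact hxl ⟨_, Nat.eq_prime_pow_of_unique_prime_dvd (orderOf_pos x).ne'
        (fun {d} hd hdx => by_contra fun hne => hno d hd hne hdx)⟩
    set y := x ^ (orderOf x / t)
    have hy : orderOf y = t := orderOf_pow_orderOf_div (orderOf_pos x).ne' htx
    obtain ⟨h, hhy, kh, hkh⟩ := Element.exists_pElement_preimage ht π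
      (QuotientGroup.mk'_surjective _) (y := y) (k := 1) (by rw [hy, pow_one])
    have hhC : (h : G) ∉ C := fun hh => ht.ne_one (by rw [← hy, ← hhy, (hπ h).2 hh, orderOf_one])
    have hht : (h : G) ^ t ∈ C := by
      rw [← SubmonoidClass.coe_pow, ← hπ, map_pow, hhy, ← hy, pow_orderOf_eq_one]
    have hyL : y * γ * y⁻¹ ∈ zpowers γ := by
      rw [← hgen]; exact ((mem_normalizer_iff.1 (pow_mem hx _)) γ).1 hγL
    obtain ⟨i, hi⟩ := (isOfFinOrder_of_finite γ).mem_powers_iff_mem_zpowers.2 hyL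
    haveI := Fact.mk ht
    refine B.no_norm H hlm hl' hl'm hl'l ht htl g.2 ⟨kg, by rw [← hkg, orderOf_coe]⟩ hgC hgl h.2
      ⟨kh, by rw [← hkh, orderOf_coe]⟩ hhC hht (i := i) ?_
    have := (hπ ((g ^ i)⁻¹ * (h * g * h⁻¹))).1 (by
      simp only [map_mul, map_inv, map_pow, hgγ, hhy]
      rw [inv_mul_eq_one]; exact hi)
    simpa using this
  -- Burnside
  obtain ⟨S⟩ : Nonempty (Sylow s (N ⧸ C.subgroupOf N)) := inferInstance
  have hSc := hcard s hsm S
  haveI : IsCyclic S := isCyclic_of_prime_card hSc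
  have hS : normalizer ((S : Subgroup (N ⧸ C.subgroupOf N)) : Set (N ⧸ C.subgroupOf N)) ≤
      centralizer ((S : Subgroup (N ⧸ C.subgroupOf N)) : Set (N ⧸ C.subgroupOf N)) :=
    (hself s hsm S).trans fun x hx => mem_centralizer_iff.2 fun y hy => by
      letI := IsCyclic.commGroup (α := S)
      exact congrArg Subtype.val (mul_comm (⟨y, hy⟩ : S) ⟨x, hx⟩)
  set K := (MonoidHom.transferSylow S hS).ker
  have hKS := MonoidHom.ker_transferSylow_isComplement' S hS
  obtain ⟨Q⟩ : Nonempty (Sylow p K) := inferInstance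
  have htop := Sylow.normalizer_sup_eq_top Q
  have hQ : IsPGroup p ((Q : Subgroup K).map K.subtype) := Q.isPGroup'.map _
  have hpK : ¬ p ∣ K.index := by
    rw [hKS.symm.index_eq_card, hSc]
    exact fun h => hsp ((Nat.prime_dvd_prime_iff_eq hp.out hs.out).1 h).symm
  have hidx : ¬ p ∣ ((Q : Subgroup K).map K.subtype).index := by
    rw [index_map_subtype]
    exact fun hd => (hp.out.dvd_mul.mp hd).elim Q.not_dvd_index hpK
  have hle : normalizer (((Q : Subgroup K).map K.subtype) : Set (N ⧸ C.subgroupOf N)) ≤ K := by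
    have h1 := hself p hpm (hQ.toSylow hidx)
    exact h1.trans (map_subtype_le _)
  have hKtop : K = ⊤ := top_le_iff.1 (htop ▸ sup_le hle le_rfl)
  have := hKS.symm.index_eq_card
  change K.index = _ at this
  rw [hKtop, index_top, hSc] at this
  exact hs.out.ne_one this.symm

namespace Hyp

/-- `m` has only one prime divisor. -/
theorem primes_eq {p s : ℕ} (hp : p.Prime) (hs : s.Prime) (hpm : p ∣ m) (hsm : s ∣ m) : s = p := by
  by_contra hsp
  haveI := Fact.mk hp
  haveI := Fact.mk hs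
  obtain ⟨q, x, hq, hxe, hxs⟩ := H.exists_small
  have hxc := H.not_center (x := x) (by rw [hxs]; exact H.m1.ne')
  have hother : ∀ t : ℕ, t.Prime → t ∣ m → ∃ t', t'.Prime ∧ t' ∣ m ∧ t' ≠ t := fun t ht htm => by
    by_cases h : t = p
    · exact ⟨s, hs, hsm, h ▸ hsp⟩
    · exact ⟨p, hp, hpm, Ne.symm h⟩
  have hqm : ¬ q ∣ m := fun hqm => by
    haveI := Fact.mk hq
    obtain ⟨t', ht', ht'm, ht'q⟩ := hother q hq hqm
    have := H.no_small_piece hqm ht' ht'm ht'q hxe hxc
    rw [hxs] at this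
    exact H.mn_ne this
  obtain ⟨u, huC, huc, hue⟩ := H.exists_nc hpm hxc
  set C := centralizer ({u} : Set G) with hC
  have hub := H.no_small_piece hpm hs hsm hsp hue huc
  have hxC : x ∈ C := mem_cent.2 (mem_cent.1 huC).symm
  have hqp : q ≠ p := fun e => hqm (e ▸ hpm)
  have hprim : ∀ v ∈ C, ∀ r : ℕ, r.Prime → El r v → C ≤ centralizer {v} := by
    intro v hv r hr hve
    by_cases h : r = p
    · subst h; exact H.piece_central hpm hs hsm hsp hue huc hve hv
    · exact H.big_central hub (mem_cent.1 hv).symm (El.commute_cop hue (hve.coprime_prime hr hp h))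
  have hab : ∀ a ∈ C, ∀ b ∈ C, Commute a b := by
    intro a ha b hb
    refine (Classical.by_contradiction fun hnab => ?_)
    obtain ⟨v, hv, r, hr, hve, -, hvn⟩ := FourSizes.exists_part (V := C) (f := b)
      (fun h => hnab (mem_cent.1 (h ha)))
    exact hvn (hprim v (zpowers_le.2 hb hv) r hr hve)
  have heq : ∀ t : ℕ, t.Prime → t ∣ m → ∀ v ∈ C, El t v → v ∉ center G → centralizer ({v} : Set G) = C := by
    intro t ht htm v hv hve hvc
    by_cases h : t = p
    · subst h; exact H.piece_all hpm hs hsm hsp hue huc hve hvc hv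
    · exact (H.piece_eq hpm ht htm h hue huc hve hvc (mem_cent.1 hv).symm).symm
  refine Piece.absurd_two (C := C) (q := q) (p := p) (s := s) H ⟨hq, hqm, hab, heq, fun t ht htm => ?_,
    ⟨x, hxC, hxc, hxe⟩, fun t ht htm => ?_⟩ hpm hsm hsp
  · haveI := Fact.mk ht; exact H.exists_nc htm huc
  · haveI := Fact.mk ht; exact H.exists_sylow_normalizes hpm hs hsm hsp hue huc htm

/-- `m` is a power of a prime. -/
theorem exists_prime_pow : ∃ (p a : ℕ), p.Prime ∧ 0 < a ∧ m = p ^ a := by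
  obtain ⟨p, hp, hpm⟩ := Nat.exists_prime_and_dvd H.m1.ne'
  refine ⟨p, m.primeFactorsList.length, hp, ?_, Nat.eq_prime_pow_of_unique_prime_dvd
    (by linarith [H.m1]) (fun {d} hd hdm => H.primes_eq hp hd hpm hdm)⟩
  exact List.length_pos_of_mem ((Nat.mem_primeFactorsList (by linarith [H.m1])).2 ⟨hp, hpm⟩)

end Hyp

end Cfsg.Agent.OneMMN
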