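import Cfsg.Agent.OneMMN.OnePrime
import Cfsg.Agent.FGSev.PPowerIndex

/-!
Class sizes `1, m, m * n` with `m` a power of the prime `p`: then `m = p`.
-/

set_option autoImplicit false

namespace Cfsg.Agent.OneMMN

open Subgroup
open scoped Pointwise
open Cfsg.Agent.TwoLargest (cls mem_cent center_le_cent cls_pos center_of_cls_eq_one cent_eq_of_le)
open Cfsg.Agent.FourSizes (El NC)

variable {G : Type*} [Group G] [Finite G] {m n p α : ℕ}

omit [Finite G] in
theorem ne_of_coprime_el {r : ℕ} {v : G} (hp : p.Prime) (hve : El r v) (hv : v ∉ center G)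
    (hvo : (orderOf v).Coprime p) : r ≠ p := fun h => by
  subst h
  obtain ⟨k, hk⟩ := hve
  rcases k.eq_zero_or_pos with rfl | hk0
  · rw [pow_zero, orderOf_eq_one_iff] at hk
    exact hv (hk ▸ one_mem _)
  · rw [hk, Nat.coprime_pow_left_iff hk0, Nat.coprime_self] at hvo
    exact hp.one_lt.ne' hvo

/-- A noncentral element of order prime to `p` in `U` yields a noncentral primary one. -/
theorem exists_nc_part (hp : p.Prime) {U : Subgroup G} {y : G} (hy : y ∈ U) (hyc : y ∉ center G)
    (hyo : (orderOf y).Coprime p) : ∃ r : ℕ, r.Prime ∧ r ≠ p ∧ NC r U := by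
  obtain ⟨v, hv, hvc, r, k, hr, hk⟩ := FGSev.exists_noncentral_primePow hyc
  exact ⟨r, hr, ne_of_coprime_el hp ⟨k, hk⟩ hvc (hyo.coprime_dvd_left (orderOf_dvd_of_mem_zpowers hv)),
    v, zpowers_le.2 hy hv, hvc, k, hk⟩

namespace Hyp

variable (H : Hyp G m n)
include H

theorem p_dvd (hm : m = p ^ α) : p ∣ m := by
  rcases α.eq_zero_or_pos with rfl | hα
  · have := H.m1
    simp [hm] at this
  · exact hm ▸ dvd_pow_self p hα.ne'

theorem not_dvd_of_ne (hp : p.Prime) (hm : m = p ^ α) {q : ℕ} (hq : q.Prime) (hqp : q ≠ p) : ¬ q ∣ m :=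
  fun h => hqp ((Nat.prime_dvd_prime_iff_eq hq hp).1 (hq.dvd_of_dvd_pow (hm ▸ h)))

theorem exists_nc_pprime (hp : p.Prime) (hm : m = p ^ α) :
    ∃ (q : ℕ) (a : G), q.Prime ∧ q ≠ p ∧ a ∉ center G ∧ El q a := by
  obtain ⟨q, a, hq, hqm, hac, hae⟩ := H.exists_nc_out
  exact ⟨q, a, hq, fun e => hqm (e ▸ H.p_dvd hm), hac, hae⟩

/-- A normal subgroup of `p`-power index contains all `p'`-elements. -/
theorem pp_mem (hm : m = p ^ α) {C : Subgroup G} [C.Normal] (hC : C.index ∣ m) {w : G}
    (hw : (orderOf w).Coprime p) : w ∈ C :=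
  Element.mem_of_coprime_index ((hw.pow_right α).coprime_dvd_right (hm ▸ hC))

theorem small_normal [hp : Fact p.Prime] (hm : m = p ^ α) (P : Sylow p G) {u : G} (hus : cls u = m)
    (hN : (P : Subgroup G) ≤ normalizer ((centralizer ({u} : Set G) : Subgroup G) : Set G)) :
    (centralizer ({u} : Set G)).Normal := by
  refine normalizer_eq_top_iff.1 (index_eq_one.1 (by_contra fun hne => ?_))
  obtain ⟨t, ht, htN⟩ := Nat.exists_prime_and_dvd hne
  have htm : t ∣ m := hus ▸ htN.trans (index_dvd_of_le le_normalizer)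
  rw [(Nat.prime_dvd_prime_iff_eq ht hp.out).1 (ht.dvd_of_dvd_pow (hm ▸ htm))] at htN
  exact P.not_dvd_index (htN.trans (index_dvd_of_le hN))

/-- Outside a normal small centraliser the centralisers have no noncentral `p'`-elements. -/
theorem small_outside [hp : Fact p.Prime] (hm : m = p ^ α) (P : Sylow p G) {u : G} (hue : El p u)
    (hu : u ∉ center G) (hus : cls u = m) [hn : (centralizer ({u} : Set G)).Normal] {g : G}
    (hg : g ∈ (P : Subgroup G)) (hgC : g ∉ centralizer ({u} : Set G)) {y : G} (hgy : Commute g y)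
    (hyo : (orderOf y).Coprime p) : y ∈ center G :=
  H.fix_mem (H.p_dvd hm) P hue hu ((normalizer_eq_top_iff.2 hn).symm ▸ le_top) hg hgC
    (H.pp_mem hm (C := centralizer ({u} : Set G)) (dvd_of_eq hus) hyo) hyo hgy

theorem small_outside_cls [hp : Fact p.Prime] (hm : m = p ^ α) (P : Sylow p G) {u : G} (hue : El p u)
    (hu : u ∉ center G) (hus : cls u = m) [hn : (centralizer ({u} : Set G)).Normal] {g : G}
    (hg : g ∈ (P : Subgroup G)) (hgC : g ∉ centralizer ({u} : Set G)) : cls g = m * n := by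
  refine (H.cases fun h => hgC (center_le_cent u h)).resolve_left fun hgs => ?_
  obtain ⟨q, a, hq, hqp, hac, hae⟩ := H.exists_nc_pprime hp.out hm
  obtain ⟨b, hb, hbc, hbe⟩ := H.full hq (H.not_dvd_of_ne hp.out hm hq hqp) hgs hac hae
  exact hbc (H.small_outside hm P hue hu hus hg hgC (mem_cent.1 hb).symm
    (FourSizes.El.coprime_prime hq hp.out hqp hbe))

/-- The noncentral `p'`-elements share a normal small centraliser. -/
theorem small_pp [hp : Fact p.Prime] (hm : m = p ^ α) {u : G} (hue : El p u) (hu : u ∉ center G)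
    (hus : cls u = m) [hn : (centralizer ({u} : Set G)).Normal] {y : G} (hyc : y ∉ center G)
    (hyo : (orderOf y).Coprime p) : centralizer ({y} : Set G) = centralizer {u} := by
  set C := centralizer ({u} : Set G)
  have hyC : y ∈ C := H.pp_mem hm (dvd_of_eq hus) hyo
  have hys : cls y = m := by
    refine (H.cases hyc).resolve_right fun hyb => ?_
    obtain ⟨P⟩ : Nonempty (Sylow p G) := inferInstance
    obtain ⟨g, hgP, hgC⟩ : ∃ g ∈ (P : Subgroup G), g ∉ C := by
      by_contra hall
      push Not at hall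
      exact hu (H.center_of_sylow_le (H.p_dvd hm) P hall)
    obtain ⟨r, hr, hrp, hnc⟩ := exists_nc_part hp.out (mem_cent.2 (Commute.refl y)) hyc hyo
    obtain ⟨b, hb, hbc, hbe⟩ := H.nc_of_cls hr
      (x := y) (y := g) (by rw [hyb, H.small_outside_cls hm P hue hu hus hgP hgC]) hnc
    exact hbc (H.small_outside hm P hue hu hus hgP hgC (mem_cent.1 hb).symm
      (FourSizes.El.coprime_prime hr hp.out hrp hbe))
  have hc : Commute u y := (mem_cent.1 hyC).symm
  have e := Element.centralizer_mul_of_coprime hc (El.commute_cop hue hyo)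
  have hidx : C.relIndex (centralizer {y}) * m = cls (u * y) := by
    have h := relIndex_mul_index (inf_le_right : C ⊓ centralizer {y} ≤ centralizer {y})
    rw [inf_relIndex_right, show (centralizer ({y} : Set G)).index = m from hys, ← e] at h
    exact h
  have hdvd : C.relIndex (centralizer {y}) ∣ m := hus ▸ relIndex_dvd_index_of_normal C _
  have hle : centralizer ({u * y} : Set G) ≤ C := e ▸ inf_le_left
  have huy : u * y ∉ center G := fun hz => hu <| TwoLargest.mem_center_of_le fun x _ =>
    hle (mem_cent.2 (mem_center_iff.1 hz x))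
  have huys : cls (u * y) = m := by
    refine (H.cases huy).resolve_right fun hb => ?_
    rw [hb, mul_comm m n] at hidx
    have hn' := Nat.eq_of_mul_eq_mul_right (by linarith [H.m1]) hidx
    exact absurd (Nat.eq_one_of_dvd_coprimes H.cop (hn' ▸ hdvd) dvd_rfl) H.n1.ne'
  have heq := cent_eq_of_le hle (hus.trans huys.symm)
  rw [e] at heq
  exact (H.small_of_le hus hyc (heq ▸ inf_le_right)).symm

theorem card_sylow_of_nc [hp : Fact p.Prime] (hm : m = p ^ α) (P : Sylow p G) {u : G} (hue : El p u)
    (hu : u ∉ center G) (hup : u ^ p ∈ center G)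
    (hu2 : ∀ g ∈ (P : Subgroup G), g * u * g⁻¹ * u⁻¹ ∈ center G)
    {q : ℕ} (hq : q.Prime) (hqp : q ≠ p) (hnc : NC q (centralizer ({u} : Set G))) :
    Nat.card P = p * cP G m p := by
  refine H.card_sylow_eq (H.p_dvd hm) P hue hu hup hu2 hq hqp hnc fun a b ha hae hb hbe => ?_
  rcases H.cases hu with hus | hub
  · haveI := H.small_normal hm P hus fun g hg => mem_normalizer_cent (hu2 g hg)
    by_cases hac : a ∈ center G
    · exact (mem_center_iff.1 hac b).symm
    · exact (mem_cent.1 ((H.small_pp hm hue hu hus hac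
        (hae.coprime_prime hq hp.out hqp)).symm ▸ hb)).symm
  · exact (mem_cent.1 (H.big_central hub (mem_cent.1 ha).symm
      (El.commute_cop hue (hae.coprime_prime hq hp.out hqp)) hb)).symm

/-- A small centraliser all of whose noncentral `p'`-elements have class size `m` is normal. -/
theorem normal_of_all [hp : Fact p.Prime] (hm : m = p ^ α) {x : G} (hxe : El p x) (hx : x ∉ center G)
    (hxs : cls x = m) {z : G} (hz : z ∈ centralizer ({x} : Set G)) (hzo : (orderOf z).Coprime p)
    (hzc : z ∉ center G)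
    (hall : ∀ v ∈ centralizer ({x} : Set G), v ∉ center G → (El p v ∨ (orderOf v).Coprime p) →
      centralizer ({v} : Set G) = centralizer {x}) :
    (centralizer ({x} : Set G)).Normal := by
  set C := centralizer ({x} : Set G) with hC
  set F := Cfsg.pCore p G with hF
  haveI : F.Characteristic := Cores.pCore_characteristic_inst
  have hFp : IsPGroup p F := Cores.pCore_isPGroup
  have hxF : x ∈ F := FGSev.mem_pCore_of_index_pow hxe (a := α) (by rw [← hm]; exact hxs)
  have hCz : centralizer ({z} : Set G) = C := hall z hz hzc (Or.inr hzo)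
  have hFC : F ≤ C := by
    by_contra hne
    haveI : Group.IsNilpotent F := hFp.isNilpotent
    have hlt : C.subgroupOf F < ⊤ := lt_of_le_of_ne le_top fun e => hne (subgroupOf_eq_top.1 e)
    obtain ⟨f, hf, hfC⟩ := SetLike.exists_of_lt (Group.normalizerCondition_of_isNilpotent _ hlt)
    have hfx : (f : G) * x * (f : G)⁻¹ ∈ C :=
      mem_subgroupOf.1 (((mem_normalizer_iff.1 hf) ⟨x, hxF⟩).1
        (mem_subgroupOf.2 (mem_cent.2 (Commute.refl x))))
    have hN : (f : G) ∈ normalizer (C : Set G) :=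
      mem_normalizer_of_cent (hall _ hfx (not_center_conj hx _) (Or.inl (conj_el hxe _)))
    have hfz : (f : G) * z * (f : G)⁻¹ ∈ C := ((mem_normalizer_iff.1 hN) z).1 hz
    have hoc : (orderOf ((f : G) * z * (f : G)⁻¹)).Coprime p := by
      have e : orderOf ((f : G) * z * (f : G)⁻¹) = orderOf z :=
        orderOf_injective (MulAut.conj (f : G)).toMonoidHom (MulAut.conj (f : G)).injective z
      rw [e]; exact hzo
    have hcz : Commute ((f : G) * z * (f : G)⁻¹) z :=
      mem_cent.1 (hCz.symm ▸ hfz)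
    set d := (f : G) * z * (f : G)⁻¹ * z⁻¹ with hd
    have hdF : d ∈ F := by
      rw [hd, mul_assoc, mul_assoc, ← mul_assoc z]
      exact F.mul_mem f.2 ((inferInstance : F.Normal).conj_mem _ (F.inv_mem f.2) z)
    have hdo : (orderOf d).Coprime p := Nat.Coprime.coprime_dvd_left
      (hcz.inv_right.orderOf_mul_dvd_lcm.trans (Nat.lcm_dvd_mul _ _))
      (Nat.Coprime.mul_left hoc (by rw [orderOf_inv]; exact hzo))
    have hd1 : d = 1 := el_cop hp.out (el_of_mem_psub hFp hdF) hdo
    apply hfC
    rw [mem_subgroupOf, ← hCz]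
    exact mem_cent.2 (mul_inv_eq_iff_eq_mul.1 (mul_inv_eq_one.1 hd1))
  refine normalizer_eq_top_iff.1 (top_le_iff.1 fun g _ => ?_)
  exact mem_normalizer_of_cent (hall _ (hFC ((inferInstance : F.Normal).conj_mem x hxF g))
    (not_center_conj hx g) (Or.inl (conj_el hxe g)))

/-- The index of a Sylow centraliser is `p`. -/
theorem card_sylow_pp [hp : Fact p.Prime] (hm : m = p ^ α) (P : Sylow p G) :
    Nat.card P = p * cP G m p := by
  have hpm := H.p_dvd hm
  obtain ⟨x₀, hx₀⟩ := H.exm
  have hx₀c := H.not_center (x := x₀) (by rw [hx₀]; exact H.m1.ne')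
  obtain ⟨u, huP, huc, hup, hu2⟩ := exists_u P (D := (P : Subgroup G)) le_rfl
    (fun g hg d hd => mul_mem (mul_mem hg hd) (inv_mem hg)) fun hPZ =>
      hx₀c (H.center_of_sylow_le hpm P fun r hr => mem_cent.2 (mem_center_iff.1 (hPZ hr) x₀).symm)
  have hue := el_of_mem_psub P.isPGroup' huP
  by_cases hex : ∃ y ∈ centralizer ({u} : Set G), y ∉ center G ∧ (orderOf y).Coprime p
  · obtain ⟨y, hy, hyc, hyo⟩ := hex
    obtain ⟨r, hr, hrp, hnc⟩ := exists_nc_part hp.out hy hyc hyo
    exact H.card_sylow_of_nc hm P hue huc hup hu2 hr hrp hnc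
  push Not at hex
  -- big centralisers have no noncentral `p'`-element
  have hub : cls u = m * n := by
    refine (H.cases huc).resolve_left fun hus => ?_
    obtain ⟨q, a, hq, hqp, hac, hae⟩ := H.exists_nc_pprime hp.out hm
    obtain ⟨b, hb, hbc, hbe⟩ := H.full hq (H.not_dvd_of_ne hp.out hm hq hqp) hus hac hae
    exact hex b hb hbc (FourSizes.El.coprime_prime hq hp.out hqp hbe)
  have hbig : ∀ g, cls g = m * n → ∀ y ∈ centralizer ({g} : Set G), y ∉ center G →
      ¬ (orderOf y).Coprime p := by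
    intro g hg y hy hyc hyo
    obtain ⟨r, hr, hrp, hnc⟩ := exists_nc_part hp.out hy hyc hyo
    obtain ⟨b, hb, hbc, hbe⟩ := H.nc_of_cls hr (x := g) (y := u) (by rw [hg, hub]) hnc
    exact hex b hb hbc (FourSizes.El.coprime_prime hr hp.out hrp hbe)
  have hsmall : ∀ g, g ∉ center G → ∀ y ∈ centralizer ({g} : Set G), y ∉ center G →
      (orderOf y).Coprime p → cls g = m := fun g hg y hy hyc hyo =>
    (H.cases hg).resolve_right fun hgb => hbig g hgb y hy hyc hyo
  obtain ⟨q, z, hq, hqp, hzc, hze⟩ := H.exists_nc_pprime hp.out hm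
  have hzo : (orderOf z).Coprime p := hze.coprime_prime hq hp.out hqp
  obtain ⟨x, hxz, hxc, hxe⟩ := H.exists_nc hpm hzc
  have hzx : z ∈ centralizer ({x} : Set G) := mem_cent.2 (mem_cent.1 hxz).symm
  have hxs := hsmall x hxc z hzx hzc hzo
  set C := centralizer ({x} : Set G) with hC
  have hpp : ∀ v ∈ C, v ∉ center G → (orderOf v).Coprime p → centralizer ({v} : Set G) = C := by
    intro v hv hvc hvo
    have e := Element.centralizer_mul_of_coprime (mem_cent.1 hv).symm (El.commute_cop hxe hvo)
    have hle : centralizer ({x * v} : Set G) ≤ C := e ▸ inf_le_left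
    have hxv : x * v ∉ center G := fun hz => hxc <| TwoLargest.mem_center_of_le fun g _ =>
      hle (mem_cent.2 (mem_center_iff.1 hz g))
    have hvm : v ∈ centralizer ({x * v} : Set G) := e.symm ▸ ⟨hv, mem_cent.2 (Commute.refl v)⟩
    have heq := cent_eq_of_le hle (hxs.trans (hsmall _ hxv v hvm hvc hvo).symm)
    rw [e] at heq
    exact (H.small_of_le hxs hvc (heq ▸ inf_le_right)).symm
  have hall : ∀ v ∈ C, v ∉ center G → (El p v ∨ (orderOf v).Coprime p) →
      centralizer ({v} : Set G) = C := by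
    rintro v hv hvc (hve | hvo)
    · have hvz : Commute v z := H.commute_in_cent hpm hxe hxc hv hve hzx hzo
      have hvs := hsmall v hvc z (mem_cent.2 hvz.symm) hzc hzo
      have e := Element.centralizer_mul_of_coprime hvz (El.commute_cop hve hzo)
      have hle : centralizer ({v * z} : Set G) ≤ centralizer {v} := e ▸ inf_le_left
      have hvz' : v * z ∉ center G := fun h => hvc <| TwoLargest.mem_center_of_le fun g _ =>
        hle (mem_cent.2 (mem_center_iff.1 h g))
      have hzm : z ∈ centralizer ({v * z} : Set G) := e.symm ▸ ⟨mem_cent.2 hvz.symm, mem_cent.2 (Commute.refl z)⟩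
      have heq := cent_eq_of_le hle (hvs.trans (hsmall _ hvz' z hzm hzc hzo).symm)
      rw [e] at heq
      rw [← hpp z hzx hzc hzo]
      exact H.small_of_le hvs hzc (heq ▸ inf_le_right)
    · exact hpp v hv hvc hvo
  haveI hn := H.normal_of_all hm hxe hxc hxs hzx hzo hzc hall
  have hD : ¬ (P : Subgroup G) ⊓ C ≤ center G := by
    intro hle
    have h1 := H.card_inf hpm P hxc ((normalizer_eq_top_iff.2 hn).symm ▸ le_top)
    have h2 := card_le_of_le (le_inf inf_le_left hle :
      (P : Subgroup G) ⊓ C ≤ (P : Subgroup G) ⊓ center G)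
    rw [h1] at h2
    exact absurd (H.center_card_lt hpm P) h2.not_gt
  obtain ⟨u', hu', hu'c, hu'p, hu'2⟩ := exists_u P (D := (P : Subgroup G) ⊓ C) inf_le_left
    (fun g hg d hd => ⟨(P : Subgroup G).mul_mem ((P : Subgroup G).mul_mem hg hd.1)
      ((P : Subgroup G).inv_mem hg), hn.conj_mem _ hd.2 g⟩) hD
  have hu'e := el_of_mem_psub P.isPGroup' hu'.1
  refine H.card_sylow_of_nc hm P hu'e hu'c hu'p hu'2 hq hqp ⟨z, ?_, hzc, hze⟩
  rw [hall u' hu'.2 hu'c (Or.inl hu'e)]
  exact hzx

/-- `m` is the prime `p`. -/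
theorem eq_prime [hp : Fact p.Prime] (hm : m = p ^ α) : m = p := by
  obtain ⟨P⟩ : Nonempty (Sylow p G) := inferInstance
  have h := H.card_sylow_pp hm P
  rw [Sylow.card_eq_multiplicity, cP, ← pow_succ'] at h
  have h' : (Nat.card G).factorization p = (Nat.card G).factorization p - m.factorization p + 1 :=
    Nat.pow_right_injective hp.out.two_le h
  have hf : m.factorization p = α := by rw [hm, Nat.factorization_pow, hp.out.factorization]; simp
  have hlt := H.cP_lt (H.p_dvd hm) P
  rw [Sylow.card_eq_multiplicity, cP] at hlt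
  have h2 := (Nat.pow_lt_pow_iff_right hp.out.one_lt).1 hlt
  obtain ⟨x, hx⟩ := H.exm
  have hle : m.factorization p ≤ (Nat.card G).factorization p := by
    rw [← H.fac_cls hp.out (H.p_dvd hm) (H.not_center (x := x) (by rw [hx]; exact H.m1.ne'))]
    exact (Nat.factorization_le_iff_dvd index_ne_zero_of_finite Nat.card_pos.ne').2 (index_dvd_card _) p
  have hα : α = 1 := by
    generalize (Nat.card G).factorization p = N at h' h2 hle
    omega
  rw [hm, hα, pow_one]

end Hyp

end Cfsg.Agent.OneMMN
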