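import Cfsg.Agent.OneMMN.Sylow

/-!
Class sizes `1, m, m * n`: if two primes divide `m` then the centralisers of noncentral
`p`-elements, `p ∣ m`, form pieces that Sylow subgroups normalise.
-/

set_option autoImplicit false

namespace Cfsg.Agent.OneMMN

open Subgroup
open scoped Pointwise
open Cfsg.Agent.TwoLargest (cls mem_cent center_le_cent cls_pos center_of_cls_eq_one cent_eq_of_le)
open Cfsg.Agent.FourSizes (El NC)

variable {G : Type*} [Group G] [Finite G] {m n p : ℕ}

/-- Two subgroups of a Sylow subgroup of index `p` meeting inside the centre. -/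
theorem card_eq_p_mul [hp : Fact p.Prime] (P : Sylow p G) {T Q : Subgroup G}
    (hT : T ≤ (P : Subgroup G)) (hQ : Q ≤ (P : Subgroup G)) (hTP : Nat.card P = p * Nat.card T)
    (hTQ : Nat.card T = Nat.card Q) (hinf : T ⊓ Q ≤ center G)
    (hz : Nat.card ↥((P : Subgroup G) ⊓ center G) < Nat.card T) :
    Nat.card T = p * Nat.card ↥((P : Subgroup G) ⊓ center G) := by
  have h1 : Nat.card T ≤ p * Nat.card ↥(T ⊓ Q) := by
    have hidx : T.relIndex (P : Subgroup G) = p := by
      have := relIndex_bot_left (P : Subgroup G)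
      rw [← relIndex_mul_relIndex ⊥ T (P : Subgroup G) bot_le hT, relIndex_bot_left] at this
      rw [hTP, mul_comm p] at this
      exact Nat.eq_of_mul_eq_mul_left Nat.card_pos this
    have hle : T.relIndex Q ≤ p := hidx ▸ relIndex_le_of_le_right hQ (by rw [hidx]; exact hp.out.ne_zero)
    have := relIndex_mul_relIndex ⊥ (T ⊓ Q) Q bot_le inf_le_right
    rw [relIndex_bot_left, relIndex_bot_left, inf_relIndex_right] at this
    rw [hTQ, ← this, mul_comm]
    exact Nat.mul_le_mul_right _ hle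
  have h2 : Nat.card ↥(T ⊓ Q) ≤ Nat.card ↥((P : Subgroup G) ⊓ center G) :=
    card_le_of_le (le_inf (inf_le_left.trans hT) hinf)
  refine le_antisymm (h1.trans (Nat.mul_le_mul_left p h2)) ?_
  obtain ⟨i, hi⟩ := IsPGroup.iff_card.1 (P.isPGroup'.to_le hT)
  obtain ⟨j, hj⟩ := IsPGroup.iff_card.1
    (P.isPGroup'.to_inf_left : IsPGroup p ↥((P : Subgroup G) ⊓ center G))
  rw [hi, hj] at hz ⊢
  rw [← pow_succ']
  exact Nat.pow_le_pow_right hp.out.pos ((Nat.pow_lt_pow_iff_right hp.out.one_lt).1 hz)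

/-- A subgroup of a Sylow subgroup of index `p` is normal in it. -/
theorem conj_mem_of_index [hp : Fact p.Prime] (P : Sylow p G) {T : Subgroup G}
    (hT : T ≤ (P : Subgroup G)) (hTP : Nat.card P = p * Nat.card T) :
    (T.subgroupOf (P : Subgroup G)).Normal ∧ (T.subgroupOf (P : Subgroup G)).index = p := by
  have hidx : (T.subgroupOf (P : Subgroup G)).index = p := by
    have h := card_mul_index (T.subgroupOf (P : Subgroup G))
    rw [Nat.card_congr (subgroupOfEquivOfLe hT).toEquiv, hTP, mul_comm p] at h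
    exact Nat.eq_of_mul_eq_mul_left Nat.card_pos h
  refine ⟨normal_of_index_eq_minFac_card ?_, hidx⟩
  obtain ⟨k, hk⟩ := IsPGroup.iff_card.1 P.isPGroup'
  rcases k.eq_zero_or_pos with rfl | hk0
  · rw [pow_zero, hTP] at hk
    exact absurd (Nat.eq_one_of_mul_eq_one_right hk) hp.out.ne_one
  · rw [hidx, hk, Nat.pow_minFac hk0.ne', hp.out.minFac_eq]

theorem conj_mem_sylow [hp : Fact p.Prime] (P : Sylow p G) {T : Subgroup G}
    (hT : T ≤ (P : Subgroup G)) (hTP : Nat.card P = p * Nat.card T) {g t : G}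
    (hg : g ∈ (P : Subgroup G)) (ht : t ∈ T) : g * t * g⁻¹ ∈ T :=
  (conj_mem_of_index P hT hTP).1.conj_mem ⟨t, hT ht⟩ ht ⟨g, hg⟩

theorem pow_mem_sylow [hp : Fact p.Prime] (P : Sylow p G) {T : Subgroup G}
    (hT : T ≤ (P : Subgroup G)) (hTP : Nat.card P = p * Nat.card T) {g : G}
    (hg : g ∈ (P : Subgroup G)) : g ^ p ∈ T := by
  obtain ⟨hn, hi⟩ := conj_mem_of_index P hT hTP
  have := pow_index_mem (T.subgroupOf (P : Subgroup G)) (⟨g, hg⟩ : (P : Subgroup G))
  rw [hi] at this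
  exact this

/-- A subgroup of order `p * #(P ∩ Z)` over `P ∩ Z` is spanned by any noncentral element. -/
theorem exists_of_card [hp : Fact p.Prime] (P : Sylow p G) {T : Subgroup G}
    (hT : T ≤ (P : Subgroup G)) (hZT : (P : Subgroup G) ⊓ center G ≤ T)
    (hc : Nat.card T = p * Nat.card ↥((P : Subgroup G) ⊓ center G)) {h : G} (hh : h ∈ T)
    (hhc : h ∉ center G) :
    h ^ p ∈ center G ∧ ∀ t ∈ T, ∃ k : ℤ, ∃ z ∈ center G, t = h ^ k * z := by
  set Zp := (P : Subgroup G) ⊓ center G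
  haveI : Zp.Normal := ⟨fun x hx g => by rw [mem_center_iff.1 hx.2 g, mul_inv_cancel_right]; exact hx⟩
  have hidx : (Zp.subgroupOf T).index = p := by
    have h := card_mul_index (Zp.subgroupOf T)
    rw [Nat.card_congr (subgroupOfEquivOfLe hZT).toEquiv, hc, mul_comm p] at h
    exact Nat.eq_of_mul_eq_mul_left Nat.card_pos h
  refine ⟨?_, fun t ht => ?_⟩
  · have := pow_index_mem (Zp.subgroupOf T) (⟨h, hh⟩ : T)
    rw [hidx] at this
    exact (this : h ^ p ∈ Zp).2
  have hlt : Zp < Zp ⊔ zpowers h :=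
    lt_of_le_of_ne le_sup_left fun e => hhc (e ▸ mem_sup_right (mem_zpowers h) : h ∈ Zp).2
  have hle : Zp ⊔ zpowers h ≤ T := sup_le hZT (zpowers_le.2 hh)
  have heq : Zp ⊔ zpowers h = T := by
    refine eq_of_le_of_card_ge hle ?_
    obtain ⟨i, hi⟩ := IsPGroup.iff_card.1 (P.isPGroup'.to_le (hle.trans hT))
    obtain ⟨j, hj⟩ := IsPGroup.iff_card.1 (P.isPGroup'.to_inf_left : IsPGroup p Zp)
    have h1 : Nat.card Zp < Nat.card ↥(Zp ⊔ zpowers h) :=
      Nat.lt_of_not_ge fun h => hlt.ne (eq_of_le_of_card_ge hlt.le h)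
    rw [hc, hi, hj, ← pow_succ']
    rw [hi, hj] at h1
    exact Nat.pow_le_pow_right hp.out.pos ((Nat.pow_lt_pow_iff_right hp.out.one_lt).1 h1)
  rw [← heq] at ht
  obtain ⟨z, hz, y, ⟨k, rfl⟩, rfl⟩ := mem_sup_of_normal_left.1 ht
  exact ⟨k, z, hz.2, (mem_center_iff.1 hz.2 _).symm⟩

namespace Hyp

variable (H : Hyp G m n)
include H

/-- A noncentral `p`-subgroup of full size in a centraliser contains the commuting `p`-elements. -/
theorem mem_of_commute [hp : Fact p.Prime] (hpm : p ∣ m) {R : Subgroup G} (hR : IsPGroup p R) {g : G}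
    (hg : g ∉ center G) (hRg : R ≤ centralizer ({g} : Set G)) (hc : Nat.card R = cP G m p) {v : G}
    (hv : v ∈ centralizer ({g} : Set G)) (hve : El p v) (hvR : ∀ r ∈ R, Commute r v) : v ∈ R := by
  have hV : IsPGroup p (zpowers v) := Element.isPGroup_zpowers_iff.2 hve
  have hN : R ≤ normalizer ((zpowers v : Subgroup G) : Set G) := by
    refine le_trans (fun r hr => ?_) (centralizer_le_normalizer (s := (zpowers v : Set G)))
    refine mem_centralizer_iff.2 fun y hy => ?_
    obtain ⟨k, rfl⟩ := hy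
    exact (((hvR r hr).zpow_right k).symm).eq
  have h := H.psub_le hpm (hR.to_sup_of_normal_right' hV hN) hg (sup_le hRg (zpowers_le.2 hv))
  rw [← hc] at h
  rw [eq_of_le_of_card_ge (le_sup_left : R ≤ R ⊔ zpowers v) h]
  exact mem_sup_right (mem_zpowers v)

/-- A conjugate whose centraliser has a full `p`-subgroup inside the given Sylow subgroup. -/
theorem exists_conj_full [hp : Fact p.Prime] (hpm : p ∣ m) (P : Sylow p G) {g : G} (hg : g ∉ center G)
    (hge : El p g) :
    ∃ k : G, ∃ Q : Subgroup G, Q ≤ (P : Subgroup G) ∧ Q ≤ centralizer {k * g * k⁻¹} ∧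
      Nat.card Q = cP G m p ∧ k * g * k⁻¹ ∈ Q := by
  obtain ⟨R, hR, hRle, hRc, hgR⟩ := H.exists_psub hpm hg (mem_cent.2 (Commute.refl g)) hge
  obtain ⟨S, hS⟩ := hR.exists_le_sylow
  obtain ⟨k, hk⟩ := MulAction.exists_smul_eq G S P
  refine ⟨k, R.map (MulAut.conj k).toMonoidHom, ?_, ?_, ?_, ⟨g, hgR, rfl⟩⟩
  · rintro _ ⟨r, hr, rfl⟩
    rw [← hk]
    exact smul_mem_pointwise_smul r (MulAut.conj k) _ (hS hr)
  · rintro _ ⟨r, hr, rfl⟩
    exact mem_cent_conj (hRle hr) k
  · rw [card_map_of_injective (MulAut.conj k).injective, hRc]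

section TwoPrimes

variable {s : ℕ}

theorem piece_eq [hp : Fact p.Prime] (hpm : p ∣ m) (hs : s.Prime) (hsm : s ∣ m) (hsp : s ≠ p)
    {u v : G} (hue : El p u) (hu : u ∉ center G) (hve : El s v) (hv : v ∉ center G) (hc : Commute u v) :
    centralizer ({u} : Set G) = centralizer {v} := by
  haveI := Fact.mk hs
  exact le_antisymm (H.central_in_cent hpm hs hsm hsp hue hu (mem_cent.2 hc.symm) hve)
    (H.central_in_cent hsm hp.out hpm hsp.symm hve hv (mem_cent.2 hc) hue)

theorem piece_all [hp : Fact p.Prime] (hpm : p ∣ m) (hs : s.Prime) (hsm : s ∣ m) (hsp : s ≠ p)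
    {u v : G} (hue : El p u) (hu : u ∉ center G) (hve : El p v) (hv : v ∉ center G)
    (hc : v ∈ centralizer ({u} : Set G)) :
    centralizer ({v} : Set G) = centralizer {u} := by
  haveI := Fact.mk hs
  obtain ⟨w, hw, hwc, hwe⟩ := H.exists_nc hsm hu
  have h1 := H.piece_eq hpm hs hsm hsp hue hu hwe hwc (mem_cent.1 hw).symm
  rw [h1]
  exact H.piece_eq hpm hs hsm hsp hve hv hwe hwc (mem_cent.1 (h1 ▸ hc))

/-- All `p`-elements of `C(u)` are central there. -/
theorem piece_central [hp : Fact p.Prime] (hpm : p ∣ m) (hs : s.Prime) (hsm : s ∣ m) (hsp : s ≠ p)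
    {u v : G} (hue : El p u) (hu : u ∉ center G) (hve : El p v)
    (hc : v ∈ centralizer ({u} : Set G)) :
    centralizer ({u} : Set G) ≤ centralizer {v} := by
  by_cases hv : v ∈ center G
  · exact fun g _ => mem_cent.2 (mem_center_iff.1 hv g)
  · rw [H.piece_all hpm hs hsm hsp hue hu hve hv hc]

theorem card_sylow_two [hp : Fact p.Prime] (hpm : p ∣ m) (hs : s.Prime) (hsm : s ∣ m) (hsp : s ≠ p)
    (P : Sylow p G) : Nat.card P = p * cP G m p := by
  haveI := Fact.mk hs
  obtain ⟨x, hx⟩ := H.exm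
  have hxc := H.not_center (x := x) (by rw [hx]; exact H.m1.ne')
  obtain ⟨u, huP, huc, hup, hu2⟩ := exists_u P (D := (P : Subgroup G)) le_rfl
    (fun g hg d hd => mul_mem (mul_mem hg hd) (inv_mem hg)) fun hPZ =>
      hxc (H.center_of_sylow_le hpm P fun r hr => mem_cent.2 (mem_center_iff.1 (hPZ hr) x).symm)
  have hue := el_of_mem_psub P.isPGroup' huP
  exact H.card_sylow_eq hpm P hue huc hup hu2 hs hsp (H.exists_nc hsm huc) fun a b ha hae hb _ =>
    (mem_cent.1 (H.central_in_cent hpm hs hsm hsp hue huc ha hae hb)).symm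

/-- The piece of `u` is normalised by a Sylow subgroup for every prime of `m`. -/
theorem exists_sylow_normalizes [hp : Fact p.Prime] (hpm : p ∣ m) (hs : s.Prime) (hsm : s ∣ m)
    (hsp : s ≠ p) {u : G} (hue : El p u) (hu : u ∉ center G) {t : ℕ} [ht : Fact t.Prime] (htm : t ∣ m) :
    ∃ T : Sylow t G,
      (T : Subgroup G) ≤ normalizer ((centralizer ({u} : Set G) : Subgroup G) : Set G) := by
  obtain ⟨w, hwC, hwc, hwe⟩ := H.exists_nc htm hu
  obtain ⟨s', hs', hs'm, hs't⟩ : ∃ s', s'.Prime ∧ s' ∣ m ∧ s' ≠ t := by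
    by_cases h : t = p
    · exact ⟨s, hs, hsm, h ▸ hsp⟩
    · exact ⟨p, hp.out, hpm, Ne.symm h⟩
  have hwu : centralizer ({w} : Set G) = centralizer {u} := by
    by_cases h : t = p
    · subst h; exact H.piece_all htm hs hsm hsp hue hu hwe hwc hwC
    · exact (H.piece_eq hpm ht.out htm h hue hu hwe hwc (mem_cent.1 hwC).symm).symm
  obtain ⟨R, hR, hRle, hRc, hwR⟩ := H.exists_psub htm hwc (mem_cent.2 (Commute.refl w)) hwe
  obtain ⟨T, hT⟩ := hR.exists_le_sylow
  refine ⟨T, fun g hg => ?_⟩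
  have hTc : Nat.card T = t * Nat.card R := by rw [hRc, H.card_sylow_two htm hs' hs'm hs't T]
  have hmem : g * w * g⁻¹ ∈ R := conj_mem_sylow T hT hTc hg hwR
  rw [← hwu]
  exact mem_normalizer_of_cent (H.piece_all htm hs' hs'm hs't hwe hwc (conj_el hwe g)
    (not_center_conj hwc g) (hRle hmem))

/-- A small piece is normal. -/
theorem small_piece_normal [hp : Fact p.Prime] (hpm : p ∣ m) (hs : s.Prime) (hsm : s ∣ m) (hsp : s ≠ p)
    {u : G} (hue : El p u) (hu : u ∉ center G) (hus : cls u = m) :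
    (centralizer ({u} : Set G)).Normal := by
  set N := normalizer ((centralizer ({u} : Set G) : Subgroup G) : Set G)
  refine normalizer_eq_top_iff.1 (index_eq_one.1 (by_contra fun hne => ?_))
  obtain ⟨t, ht, htN⟩ := Nat.exists_prime_and_dvd hne
  haveI := Fact.mk ht
  have htm : t ∣ m := hus ▸ htN.trans (index_dvd_of_le le_normalizer)
  obtain ⟨T, hT⟩ := H.exists_sylow_normalizes hpm hs hsm hsp hue hu htm
  exact T.not_dvd_index (htN.trans (index_dvd_of_le hT))

/-- A small piece forces `s ∣ p - 1`. -/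
theorem dvd_pred [hp : Fact p.Prime] (hpm : p ∣ m) (hs : s.Prime) (hsm : s ∣ m) (hsp : s ≠ p)
    {u : G} (hue : El p u) (hu : u ∉ center G) (hus : cls u = m) : s ∣ p - 1 := by
  haveI := Fact.mk hs
  set C := centralizer ({u} : Set G) with hC
  haveI hCn : C.Normal := H.small_piece_normal hpm hs hsm hsp hue hu hus
  have hNtop : ∀ K : Subgroup G, K ≤ normalizer (C : Set G) := fun K =>
    (normalizer_eq_top_iff.2 hCn).symm ▸ le_top
  obtain ⟨P⟩ : Nonempty (Sylow p G) := inferInstance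
  set R := (P : Subgroup G) ⊓ C with hRdef
  have hRc : Nat.card R = cP G m p := H.card_inf hpm P hu (hNtop _)
  obtain ⟨g, hgP, hgC⟩ : ∃ g ∈ (P : Subgroup G), g ∉ C := by
    by_contra hall
    push Not at hall
    exact hu (H.center_of_sylow_le hpm P hall)
  have hgc : g ∉ center G := fun h => hgC (center_le_cent u h)
  obtain ⟨k, Q, hQP, hQg, hQc, hgQ⟩ := H.exists_conj_full hpm P hgc (el_of_mem_psub P.isPGroup' hgP)
  have hg'C : k * g * k⁻¹ ∉ C := fun h => hgC (by simpa [mul_assoc] using hCn.conj_mem _ h k⁻¹)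
  have hinf : R ⊓ Q ≤ center G := fun t ht => by
    by_contra htc
    refine hg'C ?_
    rw [hC, ← H.piece_all hpm hs hsm hsp hue hu (el_of_mem_psub P.isPGroup' ht.1.1) htc ht.1.2]
    exact mem_cent.2 (mem_cent.1 (hQg ht.2)).symm
  have hPc := H.card_sylow_two hpm hs hsm hsp P
  have hcard := card_eq_p_mul P inf_le_left hQP (by rw [hRc, hPc]) (hRc.trans hQc.symm) hinf
    (hRc.symm ▸ H.center_card_lt hpm P)
  obtain ⟨a, haR, hac⟩ : ∃ a ∈ R, a ∉ center G := by
    by_contra hall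
    push Not at hall
    have := card_le_of_le (le_inf inf_le_left hall : R ≤ (P : Subgroup G) ⊓ center G)
    rw [hRc] at this
    exact absurd (H.center_card_lt hpm P) this.not_gt
  obtain ⟨hap, hspan⟩ := exists_of_card P inf_le_left
    (le_inf inf_le_left (inf_le_right.trans (center_le_cent u))) hcard haR hac
  have hae : El p a := el_of_mem_psub P.isPGroup' haR.1
  have hCa : centralizer ({a} : Set G) = C := H.piece_all hpm hs hsm hsp hue hu hae hac haR.2
  obtain ⟨S⟩ : Nonempty (Sylow s G) := inferInstance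
  obtain ⟨h, hhS, hhC⟩ : ∃ h ∈ (S : Subgroup G), h ∉ C := by
    by_contra hall
    push Not at hall
    exact hu (H.center_of_sylow_le hsm S hall)
  have hhs : h ^ s ∈ C := by
    obtain ⟨w, hwC, hwc, hwe⟩ := H.exists_nc hsm hu
    have hwu := H.piece_eq hpm hs hsm hsp hue hu hwe hwc (mem_cent.1 hwC).symm
    have hTc : Nat.card ↥((S : Subgroup G) ⊓ C) = cP G m s := by
      rw [hC, hwu]
      exact H.card_inf hsm S hwc (hwu ▸ hNtop _)
    exact (pow_mem_sylow S inf_le_left
      (by rw [hTc, H.card_sylow_two hsm hp.out hpm hsp.symm S]) hhS).2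
  have hh' : h * a * h⁻¹ ∈ R := by
    have hmemC : h * a * h⁻¹ ∈ C := hCn.conj_mem _ haR.2 h
    refine H.mem_of_commute hpm P.isPGroup'.to_inf_left hu inf_le_right hRc hmemC (conj_el hae h) ?_
    exact fun r hr => (mem_cent.1 (H.piece_central hpm hs hsm hsp hue hu
      (el_of_mem_psub P.isPGroup' hr.1) hr.2 hmemC)).symm
  obtain ⟨j, z, hz, hj⟩ := hspan _ hh'
  have hiter : ∀ l : ℕ, ∃ z' ∈ center G, h ^ l * a * (h ^ l)⁻¹ = a ^ (j ^ l) * z' := by
    intro l
    induction l with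
    | zero => exact ⟨1, one_mem _, by simp⟩
    | succ l ih =>
      obtain ⟨z', hz', e⟩ := ih
      refine ⟨z ^ (j ^ l) * z', mul_mem (zpow_mem hz _) hz', ?_⟩
      calc h ^ (l + 1) * a * (h ^ (l + 1))⁻¹ = h * (h ^ l * a * (h ^ l)⁻¹) * h⁻¹ := by
            rw [pow_succ', mul_inv_rev]; simp only [mul_assoc]
        _ = h * a ^ (j ^ l) * (z' * h⁻¹) := by rw [e]; simp only [mul_assoc]
        _ = h * a ^ (j ^ l) * h⁻¹ * z' := by rw [← mem_center_iff.1 hz' h⁻¹, mul_assoc _ h⁻¹]
        _ = (a ^ j * z) ^ (j ^ l) * z' := by rw [← hj, conj_zpow]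
        _ = a ^ (j ^ (l + 1)) * (z ^ (j ^ l) * z') := by
            rw [Commute.mul_zpow (mem_center_iff.1 hz _), ← zpow_mul, mul_assoc, pow_succ' j]
  obtain ⟨z', hz', e⟩ := hiter s
  have hfix : h ^ s * a * (h ^ s)⁻¹ = a := by
    rw [← hCa] at hhs
    exact mul_inv_eq_iff_eq_mul.2 (mem_cent.1 hhs)
  have hmod : a ^ (j ^ s - 1 : ℤ) ∈ center G := by
    rw [hfix] at e
    have e2 : a ^ (j ^ s - 1 : ℤ) = z'⁻¹ := by
      rw [zpow_sub_one, eq_mul_inv_of_mul_eq e.symm, mul_assoc, ← mem_center_iff.1 (inv_mem hz') a⁻¹,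
        ← mul_assoc, mul_inv_cancel, one_mul]
    exact e2 ▸ inv_mem hz'
  have hdvd : ∀ i : ℤ, a ^ i ∈ center G → (p : ℤ) ∣ i := by
    intro i hi
    by_contra hn
    obtain ⟨x, y, hxy⟩ := ((Nat.prime_iff_prime_int.1 hp.out).coprime_iff_not_dvd.2 hn)
    refine hac ?_
    rw [← zpow_one a, ← hxy, zpow_add, mul_comm x, zpow_mul, zpow_natCast, mul_comm y, zpow_mul]
    exact mul_mem (zpow_mem hap _) (zpow_mem hi _)
  have hjs : ((j : ZMod p)) ^ s = 1 := by
    have := (ZMod.intCast_zmod_eq_zero_iff_dvd _ p).2 (hdvd _ hmod)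
    push_cast at this
    exact sub_eq_zero.1 this
  have hj1 : (j : ZMod p) ≠ 1 := by
    intro hj1
    apply hhC
    have hd : (p : ℤ) ∣ j - 1 := (ZMod.intCast_zmod_eq_zero_iff_dvd _ p).1 (by simp [hj1])
    set d := a⁻¹ * (h * a * h⁻¹) with hd'
    have hdc : d ∈ center G := by
      obtain ⟨c, hc⟩ := hd
      rw [hd', hj, ← mul_assoc, ← zpow_neg_one, ← zpow_add, show (-1 : ℤ) + j = (p : ℤ) * c by omega,
        zpow_mul, zpow_natCast]
      exact mul_mem (zpow_mem hap _) hz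
    have hit : ∀ l : ℕ, h ^ l * a * (h ^ l)⁻¹ = a * d ^ l := by
      intro l
      induction l with
      | zero => simp
      | succ l ih =>
        calc h ^ (l + 1) * a * (h ^ (l + 1))⁻¹ = h * (h ^ l * a * (h ^ l)⁻¹) * h⁻¹ := by
              rw [pow_succ', mul_inv_rev]; simp only [mul_assoc]
          _ = h * a * (d ^ l * h⁻¹) := by rw [ih]; simp only [mul_assoc]
          _ = h * a * h⁻¹ * d ^ l := by rw [← mem_center_iff.1 (pow_mem hdc l) h⁻¹, mul_assoc _ h⁻¹]
          _ = a * d ^ (l + 1) := by rw [pow_succ', ← mul_assoc a, hd', mul_inv_cancel_left]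
    have hds : d ^ s = 1 := by
      have := hit s
      rw [hfix] at this
      exact mul_eq_left.1 this.symm
    have hdp : El p d := el_of_mem_psub P.isPGroup' (mul_mem (inv_mem haR.1) hh'.1)
    have hd1 : d = 1 := el_cop hp.out hdp
      (((Nat.coprime_primes hs hp.out).2 hsp).coprime_dvd_left (orderOf_dvd_of_pow_eq_one hds))
    rw [← hCa]
    refine mem_cent.2 (mul_inv_eq_iff_eq_mul.1 ?_)
    exact (inv_mul_eq_one.1 hd1).symm
  have hj0 : (j : ZMod p) ≠ 0 := fun h0 => by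
    rw [h0, zero_pow hs.ne_zero] at hjs
    exact zero_ne_one hjs
  have := orderOf_eq_prime (hp := Fact.mk hs) hjs hj1
  rw [← this]
  exact ZMod.orderOf_dvd_card_sub_one hj0

theorem no_small_piece [hp : Fact p.Prime] (hpm : p ∣ m) (hs : s.Prime) (hsm : s ∣ m) (hsp : s ≠ p)
    {u : G} (hue : El p u) (hu : u ∉ center G) : cls u = m * n := by
  refine (H.cases hu).resolve_left fun hus => ?_
  haveI := Fact.mk hs
  obtain ⟨w, hwC, hwc, hwe⟩ := H.exists_nc hsm hu
  have hwu := H.piece_eq hpm hs hsm hsp hue hu hwe hwc (mem_cent.1 hwC).symm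
  have hws : cls w = m := by rw [cls, ← hwu]; exact hus
  have h1 := Nat.le_of_dvd (by have := hp.out.two_le; omega) (H.dvd_pred hpm hs hsm hsp hue hu hus)
  have h2 := Nat.le_of_dvd (by have := hs.two_le; omega)
    (H.dvd_pred hsm hp.out hpm hsp.symm hwe hwc hws)
  have := hp.out.two_le
  omega

end TwoPrimes

end Hyp

end Cfsg.Agent.OneMMN
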