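import Cfsg.Agent.OneMMN.PPower

/-!
Class sizes `1, p, p * n`, `p` a prime not dividing `n`: some `p`-element has class size `p`.
-/

set_option autoImplicit false

namespace Cfsg.Agent.OneMMN

open Subgroup
open scoped Pointwise
open Cfsg.Agent.TwoLargest (cls mem_cent center_le_cent cls_pos center_of_cls_eq_one cent_eq_of_le)
open Cfsg.Agent.FourSizes (El NC)

variable {G : Type*} [Group G] [Finite G] {n p : ℕ}

/-- Extra data in a group where all noncentral `p`-elements have the largest class size. -/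
structure Bad (p n : ℕ) (x : G) (P : Sylow p G) (T : Subgroup G) : Prop where
  xsmall : cls x = p
  xpp : (orderOf x).Coprime p
  TP : T ≤ (P : Subgroup G)
  Tc : Nat.card T = cP G p p
  Pc : Nat.card P = p * Nat.card T
  TC0 : T ≤ (centralizer ({x} : Set G)).normalCore
  inf : (P : Subgroup G) ⊓ (centralizer ({x} : Set G)).normalCore = T
  mem : ∀ h : G, El p h → h ∈ centralizer ({x} : Set G) → h ∈ (centralizer ({x} : Set G)).normalCore
  cent_le : ∀ t ∈ (centralizer ({x} : Set G)).normalCore, El p t → t ∉ center G →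
    centralizer ({t} : Set G) ≤ (centralizer ({x} : Set G)).normalCore
  big : ∀ t : G, El p t → t ∉ center G → cls t = p * n

variable (H : Hyp G p n)
include H

theorem exists_bad [hp : Fact p.Prime] (hall : ∀ t : G, El p t → t ∉ center G → cls t = p * n) :
    ∃ (q : ℕ) (x : G) (P : Sylow p G) (T : Subgroup G), q.Prime ∧ q ≠ p ∧ El q x ∧ Bad p n x P T := by
  have hpm : p ∣ p := dvd_rfl
  obtain ⟨q, x, hq, hxe, hxs⟩ := H.exists_small
  have hxc := H.not_center (x := x) (by rw [hxs]; exact H.m1.ne')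
  have hqp : q ≠ p := fun e => by
    have := hall x (e ▸ hxe) hxc
    rw [hxs] at this
    exact H.mn_ne this
  have hxo : (orderOf x).Coprime p := hxe.coprime_prime hq hp.out hqp
  set C := centralizer ({x} : Set G) with hC
  set C0 := C.normalCore with hC0
  obtain ⟨Q0⟩ : Nonempty (Sylow p C) := inferInstance
  set R := (Q0 : Subgroup C).map C.subtype with hR
  have hRp : IsPGroup p R := Q0.isPGroup'.map _
  obtain ⟨P, hRP⟩ := hRp.exists_le_sylow
  have hRc : Nat.card R = cP G p p := by rw [hR, card_subtype]; exact H.card_sylow_cent hpm hxc Q0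
  have hPc : Nat.card P = p * Nat.card R := by rw [hRc]; exact H.card_sylow_pp (α := 1) (pow_one p).symm P
  have hprod : ∀ b : G, ∃ k ∈ C, ∃ π ∈ (P : Subgroup G), k * π = b := fun b =>
    ClassSize.mul_eq_univ_of_coprime_index (by
      rw [show C.index = p from hxs]
      exact hp.out.coprime_iff_not_dvd.2 P.not_dvd_index) b
  have hRC0 : R ≤ C0 := by
    intro r hr b
    obtain ⟨k, hk, π, hπ, rfl⟩ := hprod b
    have h1 : π * r * π⁻¹ ∈ C := map_subtype_le _ (conj_mem_sylow P hRP hPc hπ hr)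
    have := C.mul_mem (C.mul_mem hk h1) (C.inv_mem hk)
    simpa [mul_assoc] using this
  have hmem : ∀ h : G, El p h → h ∈ C → h ∈ C0 := by
    intro h hhe hhC
    obtain ⟨k, hk⟩ := FGSev.pElem_conj_mem Q0 (g := (⟨h, hhC⟩ : C)) (FourSizes.El.coe_iff.2 hhe)
    have h2 : (k : G)⁻¹ * h * (k : G) ∈ C0 := hRC0 ⟨_, hk, rfl⟩
    simpa [mul_assoc] using (inferInstance : C0.Normal).conj_mem _ h2 (k : G)
  refine ⟨q, x, P, R, hq, hqp, hxe, ⟨hxs, hxo, hRP, hRc, hPc, hRC0, ?_, hmem, ?_, hall⟩⟩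
  · refine (eq_of_le_of_card_ge (le_inf hRP hRC0) ?_).symm
    rw [hRc]
    exact H.psub_le hpm P.isPGroup'.to_inf_left hxc (inf_le_right.trans (normalCore_le C))
  · intro t ht hte htc w hw b
    have hb : b * t * b⁻¹ ∈ C := ht b
    have hx' : Commute t (b⁻¹ * x * b) := by
      have := (mem_cent.1 hb).map (MulAut.conj b⁻¹).toMonoidHom
      simpa [mul_assoc] using this
    have hle := H.big_central (hall t hte htc) hx' (El.commute_cop hte (by
      have e : orderOf (b⁻¹ * x * b) = orderOf x := by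
        have := orderOf_injective (MulAut.conj b⁻¹).toMonoidHom (MulAut.conj b⁻¹).injective x
        simpa using this
      rw [e]; exact hxo))
    have h1 := mem_cent_conj (hle hw) b
    simpa [mul_assoc] using h1

variable {x : G} {P : Sylow p G} {T : Subgroup G}

theorem Bad.not_center (B : Bad p n x P T) : x ∉ center G :=
  H.not_center (by rw [B.xsmall]; exact H.m1.ne')

theorem Bad.exists_not_mem [hp : Fact p.Prime] (B : Bad p n x P T) :
    ∃ g ∈ (P : Subgroup G), g ∉ (centralizer ({x} : Set G)).normalCore := by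
  by_contra hall
  push Not at hall
  exact B.not_center H (H.center_of_sylow_le dvd_rfl P fun r hr => normalCore_le _ (hall r hr))

theorem Bad.pow_mem [hp : Fact p.Prime] (B : Bad p n x P T) {h : G} (hh : El p h) :
    h ^ p ∈ (centralizer ({x} : Set G)).normalCore := by
  obtain ⟨y, hy⟩ := FGSev.pElem_conj_mem P hh
  have h1 := B.TC0 (pow_mem_sylow P B.TP B.Pc hy)
  have h2 := (inferInstance : (centralizer ({x} : Set G)).normalCore.Normal).conj_mem _ h1 y
  rw [show y⁻¹ * h * y = y⁻¹ * h * y⁻¹⁻¹ by rw [inv_inv], conj_pow, inv_inv] at h2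
  simpa [mul_assoc] using h2

/-- All `p'`-elements lie in the core of the small centraliser. -/
theorem Bad.pp_mem [hp : Fact p.Prime] (B : Bad p n x P T) {w : G} (hw : (orderOf w).Coprime p) :
    w ∈ (centralizer ({x} : Set G)).normalCore := by
  set C := centralizer ({x} : Set G)
  set C0 := C.normalCore
  by_cases hwc : w ∈ center G
  · intro b
    rw [mem_center_iff.1 hwc b, mul_inv_cancel_right]
    exact center_le_cent x hwc
  obtain ⟨h, hhw, hhc, hhe⟩ := H.exists_nc dvd_rfl hwc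
  by_cases hh0 : h ∈ C0
  · exact B.cent_le h hh0 hhe hhc (mem_cent.2 (mem_cent.1 hhw).symm)
  have htriv : ∀ a ∈ C0, ∀ o : G ⧸ C, a • o = o := fun a ha o => by
    induction o using QuotientGroup.induction_on with
    | H b =>
      rw [MulAction.Quotient.smul_coe, smul_eq_mul, eq_comm, QuotientGroup.eq]
      have := ha b⁻¹
      rwa [inv_inv, mul_assoc] at this
  set o : G ⧸ C := ((1 : G) : G ⧸ C)
  have hnofix : ∀ (o' : G ⧸ C) (k : ℕ), ¬ p ∣ k → h ^ k • o' ≠ o' := by
    intro o' k hk hfix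
    induction o' using QuotientGroup.induction_on with
    | H b =>
      rw [MulAction.Quotient.smul_coe, smul_eq_mul, eq_comm, QuotientGroup.eq] at hfix
      have hce : El p (b⁻¹ * (h ^ k) * b) := by
        obtain ⟨i, hi⟩ := hhe
        obtain ⟨j, -, hj⟩ := (Nat.dvd_prime_pow hp.out).1 (hi ▸ orderOf_pow_dvd k : orderOf (h ^ k) ∣ p ^ i)
        exact FourSizes.El.conj (⟨j, hj⟩ : El p (h ^ k)) b
      have h1 := (inferInstance : C0.Normal).conj_mem _ (B.mem _ hce (by rwa [mul_assoc])) b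
      have h2 : h ^ k ∈ C0 := by simpa [mul_assoc] using h1
      apply hh0
      obtain ⟨c, d, hcd⟩ := ((Nat.prime_iff_prime_int.1 hp.out).coprime_iff_not_dvd (n := (k : ℤ))).2
        (by exact_mod_cast hk)
      rw [← zpow_one h, ← hcd, zpow_add, mul_comm c, zpow_mul, zpow_natCast, mul_comm d, zpow_mul,
        zpow_natCast]
      exact C0.mul_mem (C0.zpow_mem (B.pow_mem H hhe) _) (C0.zpow_mem h2 _)
  have hperiod : ∀ i : ℕ, h ^ i • o = h ^ (i % p) • o := fun i => by
    conv_lhs => rw [← Nat.mod_add_div i p, pow_add, mul_smul, pow_mul,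
      htriv _ (C0.pow_mem (B.pow_mem H hhe) _) o]
  haveI : NeZero p := ⟨hp.out.ne_zero⟩
  let f : ZMod p → G ⧸ C := fun i => h ^ i.val • o
  have hf : Function.Injective f := by
    have key : ∀ i j : ZMod p, i.val ≤ j.val → f i = f j → i = j := fun i j hij e => by
      by_contra hne
      refine hnofix (h ^ i.val • o) (j.val - i.val) (fun hd => ?_) ?_
      · rcases Nat.eq_zero_of_dvd_of_lt hd (by have := ZMod.val_lt j; omega) with h0
        exact hne (ZMod.val_injective p (by omega))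
      · rw [← mul_smul, ← pow_add, Nat.sub_add_cancel hij]
        exact e.symm
    intro i j e
    rcases le_total i.val j.val with h1 | h1
    · exact key i j h1 e
    · exact (key j i h1 e.symm).symm
  have hsurj : Function.Surjective f := by
    haveI := Fintype.ofFinite (G ⧸ C)
    refine ((Fintype.bijective_iff_injective_and_card f).2 ⟨hf, ?_⟩).2
    rw [ZMod.card, ← Nat.card_eq_fintype_card, ← index_eq_card]
    exact B.xsmall.symm
  obtain ⟨k, hk⟩ := hsurj (w • o)
  change h ^ k.val • o = w • o at hk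
  have hcomm : Commute w h := (mem_cent.1 hhw).symm
  have hiter : ∀ j : ℕ, w ^ j • o = h ^ (k.val * j) • o := by
    intro j
    induction j with
    | zero => simp
    | succ j ih =>
      rw [pow_succ', mul_smul, ih, ← mul_smul, (hcomm.pow_right _).eq, mul_smul, ← hk, ← mul_smul,
        ← pow_add, Nat.mul_succ]
  have hkp : p ∣ k.val := by
    by_contra hkp
    refine hnofix o (k.val * orderOf w) ?_ ?_
    · exact fun hd => (hp.out.dvd_mul.1 hd).elim hkp (hp.out.coprime_iff_not_dvd.1 hw.symm)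
    · rw [← hiter, pow_orderOf_eq_one, one_smul]
  rw [Nat.eq_zero_of_dvd_of_lt hkp (ZMod.val_lt k), pow_zero, one_smul] at hk
  intro b
  obtain ⟨i, hi⟩ := hsurj ((b⁻¹ : G) : G ⧸ C)
  change h ^ i.val • o = _ at hi
  have hfix : w • ((b⁻¹ : G) : G ⧸ C) = ((b⁻¹ : G) : G ⧸ C) := by
    rw [← hi, ← mul_smul, (hcomm.pow_right _).eq, mul_smul, ← hk]
  rw [MulAction.Quotient.smul_coe, smul_eq_mul, eq_comm, QuotientGroup.eq, inv_inv, ← mul_assoc] at hfix
  exact hfix

theorem bad_false [hp : Fact p.Prime] {q : ℕ} (hq : q.Prime) (hqp : q ≠ p) (hxe : El q x)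
    (B : Bad p n x P T) : False := by
  have hpm : p ∣ p := dvd_rfl
  set C := centralizer ({x} : Set G) with hC
  set C0 := C.normalCore with hC0
  have hxc := B.not_center H
  have hPsup : ∀ {g : G}, g ∈ (P : Subgroup G) → g ∉ T → T ⊔ zpowers g = (P : Subgroup G) := fun {g} hg hgT => by
    have hle : T ⊔ zpowers g ≤ (P : Subgroup G) := sup_le B.TP (zpowers_le.2 hg)
    have hlt : T < T ⊔ zpowers g :=
      lt_of_le_of_ne le_sup_left fun e => hgT (e ▸ mem_sup_right (mem_zpowers g))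
    refine eq_of_le_of_card_ge hle ?_
    obtain ⟨i, hi⟩ := IsPGroup.iff_card.1 (P.isPGroup'.to_le hle)
    obtain ⟨j, hj⟩ := IsPGroup.iff_card.1 (P.isPGroup'.to_le B.TP)
    have h1 : Nat.card T < Nat.card ↥(T ⊔ zpowers g) :=
      Nat.lt_of_not_ge fun h => hlt.ne (eq_of_le_of_card_ge hlt.le h)
    rw [B.Pc, hi, hj, ← pow_succ']
    rw [hi, hj] at h1
    exact Nat.pow_le_pow_right hp.out.pos ((Nat.pow_lt_pow_iff_right hp.out.one_lt).1 h1)
  -- an element outside with a full centraliser inside `P`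
  obtain ⟨g₀, hg₀P, hg₀⟩ := B.exists_not_mem H
  have hg₀c : g₀ ∉ center G := fun hc => hg₀ fun b => by
    rw [mem_center_iff.1 hc b, mul_inv_cancel_right]; exact center_le_cent x hc
  obtain ⟨k, Q, hQP, hQg, hQc, hgQ⟩ := H.exists_conj_full hpm P hg₀c (el_of_mem_psub P.isPGroup' hg₀P)
  set g := k * g₀ * k⁻¹ with hg
  have hgP : g ∈ (P : Subgroup G) := hQP hgQ
  have hg0 : g ∉ C0 := fun h => hg₀ (by
    have := (inferInstance : C0.Normal).conj_mem _ h k⁻¹
    simpa [hg, mul_assoc] using this)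
  have hgT : g ∉ T := fun h => hg0 (B.TC0 h)
  have hgc : g ∉ center G := not_center_conj hg₀c k
  have hge : El p g := el_of_mem_psub P.isPGroup' hgP
  have hinf : T ⊓ Q ≤ center G := fun t ht => by
    by_contra htc
    exact hg0 (B.cent_le t (B.TC0 ht.1) (el_of_mem_psub P.isPGroup' (B.TP ht.1)) htc
      (mem_cent.2 (mem_cent.1 (hQg ht.2)).symm))
  have hTz := card_eq_p_mul P B.TP hQP B.Pc (B.Tc.trans hQc.symm) hinf
    (B.Tc.symm ▸ H.center_card_lt hpm P)
  have hTn : ¬ T ≤ center G := fun hle => by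
    have h2 := card_le_of_le (le_inf B.TP hle)
    rw [B.Tc] at h2
    exact absurd (H.center_card_lt hpm P) h2.not_gt
  obtain ⟨a, haT, hac, hap, ha2⟩ := exists_u P B.TP (fun y hy d hd => conj_mem_sylow P B.TP B.Pc hy hd) hTn
  have hae : El p a := el_of_mem_psub P.isPGroup' (B.TP haT)
  have hZT : (P : Subgroup G) ⊓ center G ≤ T := fun z hz => by
    rw [← B.inf]
    refine ⟨hz.1, fun b => ?_⟩
    rw [mem_center_iff.1 hz.2 b, mul_inv_cancel_right]; exact center_le_cent x hz.2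
  obtain ⟨-, hspan⟩ := exists_of_card P B.TP hZT hTz haT hac
  have hTcomm : ∀ t ∈ T, ∀ w : G, Commute w a → Commute w t := fun t ht w hw => by
    obtain ⟨j, z, hz, rfl⟩ := hspan t ht
    exact (hw.zpow_right j).mul_right (mem_center_iff.1 hz w)
  -- Burnside's criterion in the core
  have hfix : ∀ w ∈ C0, (∀ t ∈ T, w * t * w⁻¹ ∈ T) → (∀ t ∈ T, w⁻¹ * t * w ∈ T) → ∀ b ∈ T,
      w * b * w⁻¹ * b⁻¹ ∈ center G → Commute w b := by
    intro w hw0 hwT hwT' b hbT hbc
    have hN : w ∈ normalizer (T : Set G) := mem_normalizer_iff.2 fun t => ⟨hwT t, fun h => by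
      simpa [mul_assoc] using hwT' _ h⟩
    set wp := Element.pPart p w with hwp
    set w' := Element.pComplPart p w with hw'
    have hwpN : wp ∈ normalizer (T : Set G) := zpowers_le.2 hN (Element.pPart_mem_zpowers p w)
    have hwpC0 : wp ∈ C0 := zpowers_le.2 hw0 (Element.pPart_mem_zpowers p w)
    have hwpT : wp ∈ T := by
      have hV : IsPGroup p (zpowers wp) :=
        Element.isPGroup_zpowers_iff.2 ⟨_, Element.orderOf_pPart_eq_pow hp.out w⟩
      have h1 := H.psub_le hpm (hV.to_sup_of_normal_right' (P.isPGroup'.to_le B.TP) (zpowers_le.2 hwpN)) hxc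
        (sup_le (zpowers_le.2 (normalCore_le C hwpC0)) (B.TC0.trans (normalCore_le C)))
      rw [← B.Tc] at h1
      rw [eq_of_le_of_card_ge (le_sup_right : T ≤ zpowers wp ⊔ T) h1]
      exact mem_sup_left (mem_zpowers wp)
    have hwpb : ∀ t ∈ T, Commute wp t := fun t ht =>
      hTcomm t ht wp (hTcomm wp hwpT a (Commute.refl a)).symm
    have hw'N : w' ∈ normalizer (T : Set G) := zpowers_le.2 hN (Element.pComplPart_mem_zpowers p w)
    have e1 : w * b * w⁻¹ = w' * b * w'⁻¹ := by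
      have hcomm := Element.commute_pPart_pComplPart p w
      conv_lhs => rw [← Element.pPart_mul_pComplPart p w, ← hwp, ← hw']
      rw [mul_inv_rev, show wp * w' * b * (w'⁻¹ * wp⁻¹) = wp * (w' * b * w'⁻¹) * wp⁻¹ by group,
        (hwpb _ ((mem_normalizer_iff.1 hw'N b).1 hbT)).eq, mul_inv_cancel_right]
    rw [e1] at hbc
    set ζ := w' * b * w'⁻¹ * b⁻¹ with hζ
    have hit : ∀ l : ℕ, w' ^ l * b * (w' ^ l)⁻¹ = ζ ^ l * b := by
      intro l
      induction l with
      | zero => simp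
      | succ l ih =>
        calc w' ^ (l + 1) * b * (w' ^ (l + 1))⁻¹ = w' * (w' ^ l * b * (w' ^ l)⁻¹) * w'⁻¹ := by
              rw [pow_succ', mul_inv_rev]; simp only [mul_assoc]
          _ = w' * ζ ^ l * (b * w'⁻¹) := by rw [ih]; simp only [mul_assoc]
          _ = ζ ^ l * (w' * b * w'⁻¹) := by rw [mem_center_iff.1 (pow_mem hbc l) w']; simp only [mul_assoc]
          _ = ζ ^ l * (ζ * b) := by rw [hζ, inv_mul_cancel_right]
          _ = ζ ^ (l + 1) * b := by rw [← mul_assoc, ← pow_succ]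
    have h1 := hit (orderOf w')
    rw [pow_orderOf_eq_one, one_mul, inv_one, mul_one] at h1
    have hζT : ζ ∈ T := T.mul_mem ((mem_normalizer_iff.1 hw'N b).1 hbT) (T.inv_mem hbT)
    have hζ1 : ζ = 1 := el_cop hp.out (el_of_mem_psub P.isPGroup' (B.TP hζT))
      (Nat.Coprime.coprime_dvd_left (orderOf_dvd_of_pow_eq_one (mul_eq_right.1 h1.symm))
        (Element.coprime_orderOf_pComplPart hp.out w))
    have h2 : Commute w' b := mul_inv_eq_iff_eq_mul.1 (mul_inv_eq_one.1 hζ1)
    have h3 := (hwpb b hbT).mul_left h2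
    rwa [hwp, hw', Element.pPart_mul_pComplPart] at h3
  -- `g` moves `a` by a central element of order `p`
  set ζ := g * a * g⁻¹ * a⁻¹ with hζ
  have hζc : ζ ∈ center G := ha2 g hgP
  have hζ1 : ζ ≠ 1 := fun h => hg0 (B.cent_le a (B.TC0 haT) hae hac
    (mem_cent.2 (mul_inv_eq_iff_eq_mul.1 (mul_inv_eq_one.1 h))))
  have hζp : ζ ^ p = 1 := by
    have h2 : (ζ * a) ^ p = g * a ^ p * g⁻¹ := by rw [hζ, inv_mul_cancel_right, conj_pow]
    rw [Commute.mul_pow (mem_center_iff.1 hζc a).symm, mem_center_iff.1 hap g,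
      mul_inv_cancel_right] at h2
    exact mul_eq_right.1 h2
  have hNC : ∀ w ∈ C0, (∀ t ∈ T, w * t * w⁻¹ ∈ T) → (∀ t ∈ T, w⁻¹ * t * w ∈ T) → Commute w a := by
    intro w hw0 hwT hwT'
    obtain ⟨j, z, hz, hj⟩ := hspan _ (hwT a haT)
    have hgT' : ∀ t ∈ T, g * t * g⁻¹ ∈ T := fun t ht => conj_mem_sylow P B.TP B.Pc hgP ht
    have hgT'' : ∀ t ∈ T, g⁻¹ * t * g ∈ T := fun t ht => by
      simpa using conj_mem_sylow P B.TP B.Pc ((P : Subgroup G).inv_mem hgP) ht
    set δ := g * w * g⁻¹ * w⁻¹ with hδ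
    have hδ0 : δ ∈ C0 := C0.mul_mem ((inferInstance : C0.Normal).conj_mem w hw0 g) (C0.inv_mem hw0)
    have hb : a ^ j ∈ T := T.zpow_mem haT j
    have hj1 : (p : ℤ) ∣ j - 1 := by
      have hjp : ¬ (p : ℤ) ∣ j := by
        intro hd
        obtain ⟨c, rfl⟩ := hd
        have hc : w * a * w⁻¹ ∈ center G := by
          rw [hj, zpow_mul, zpow_natCast]
          exact mul_mem (zpow_mem hap c) hz
        exact hac (by simpa [mul_assoc] using (inferInstance : (center G).Normal).conj_mem _ hc w⁻¹)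
      have hcz : ∀ y : G, y * z = z * y := mem_center_iff.1 hz
      have hδa : δ * a ^ j * δ⁻¹ = ζ ^ (j - 1) * a ^ j := by
        have hw' : w⁻¹ * (a ^ j * z) * w = a := by rw [← hj]; group
        have e1 : g⁻¹ * a * g = ζ⁻¹ * a := by
          have e0 : g⁻¹ * (ζ * a) * g = a := by rw [hζ, inv_mul_cancel_right]; group
          have e2 : g⁻¹ * ζ = ζ * g⁻¹ := mem_center_iff.1 hζc g⁻¹
          rw [eq_inv_mul_iff_mul_eq]
          calc ζ * (g⁻¹ * a * g) = ζ * g⁻¹ * a * g := by group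
            _ = g⁻¹ * (ζ * a) * g := by rw [← e2]; group
            _ = a := e0
        calc δ * a ^ j * δ⁻¹ = δ * (a ^ j * z) * δ⁻¹ * z⁻¹ := by
              rw [← mul_assoc, mul_assoc (δ * a ^ j) z δ⁻¹, ← hcz δ⁻¹, ← mul_assoc, mul_inv_cancel_right]
          _ = g * (w * (g⁻¹ * (w⁻¹ * (a ^ j * z) * w) * g) * w⁻¹) * g⁻¹ * z⁻¹ := by rw [hδ]; group
          _ = g * (w * (ζ⁻¹ * a) * w⁻¹) * g⁻¹ * z⁻¹ := by rw [hw', e1]
          _ = g * (ζ⁻¹ * (w * a * w⁻¹)) * g⁻¹ * z⁻¹ := by
              rw [← mul_assoc w, mem_center_iff.1 (inv_mem hζc) w]; simp only [mul_assoc]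
          _ = ζ⁻¹ * (g * (a ^ j * z) * g⁻¹) * z⁻¹ := by
              rw [hj, ← mul_assoc g, mem_center_iff.1 (inv_mem hζc) g]; simp only [mul_assoc]
          _ = ζ⁻¹ * ((ζ * a) ^ j * z) * z⁻¹ := by
              rw [hζ, inv_mul_cancel_right, conj_zpow, ← mul_assoc g, mul_assoc (g * a ^ j) z g⁻¹,
                ← hcz g⁻¹]
              simp only [mul_assoc]
          _ = ζ ^ (j - 1) * a ^ j := by
              rw [Commute.mul_zpow (mem_center_iff.1 hζc a).symm, ← mul_assoc, mul_inv_cancel_right,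
                ← mul_assoc, zpow_sub_one, (Commute.zpow_self ζ j).inv_right.eq]
      have hcomm : Commute δ (a ^ j) := hfix δ hδ0
        (fun t ht => by
          have h1 := hgT' _ (hwT _ (hgT'' _ (hwT' t ht)))
          rw [hδ]; simpa [mul_assoc] using h1)
        (fun t ht => by
          have h1 := hwT _ (hgT' _ (hwT' _ (hgT'' t ht)))
          rw [hδ]; simpa [mul_assoc] using h1)
        _ hb (by rw [hδa, mul_inv_cancel_right]; exact zpow_mem hζc _)
      rw [hcomm.eq, mul_inv_cancel_right] at hδa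
      have h1 : ζ ^ (j - 1) = 1 := mul_eq_right.1 hδa.symm
      have := orderOf_dvd_iff_zpow_eq_one.2 h1
      rwa [orderOf_eq_prime hζp hζ1] at this
    refine hfix w hw0 hwT hwT' a haT ?_
    obtain ⟨c, hc⟩ := hj1
    rw [hj, mul_assoc, ← mem_center_iff.1 hz a⁻¹, ← mul_assoc, ← zpow_sub_one, hc, zpow_mul, zpow_natCast]
    exact mul_mem (zpow_mem hap c) hz
  -- the normal complement `L`
  have hTle : T ≤ C0 := B.TC0
  have hT0 : IsPGroup p (T.subgroupOf C0) :=
    (P.isPGroup'.to_le B.TP).of_equiv (subgroupOfEquivOfLe hTle).symm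
  have hidxT : ¬ p ∣ (T.subgroupOf C0).index := by
    intro hd
    obtain ⟨R, hR⟩ := hT0.exists_le_sylow
    have h1 : R.toSubgroup.map C0.subtype ≤ C := (map_subtype_le _).trans (normalCore_le C)
    have h2 := H.psub_le hpm (R.isPGroup'.map C0.subtype) hxc h1
    rw [card_subtype, ← B.Tc, ← Nat.card_congr (subgroupOfEquivOfLe hTle).toEquiv] at h2
    rw [eq_of_le_of_card_ge hR h2] at hd
    exact R.not_dvd_index hd
  let S : Sylow p C0 := hT0.toSylow hidxT
  have hS : ∀ y : C0, y ∈ (S : Subgroup C0) ↔ (y : G) ∈ T := fun y => Iff.rfl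
  have hN : normalizer ((S : Subgroup C0) : Set C0) ≤ centralizer ((S : Subgroup C0) : Set C0) := by
    intro w hw
    refine mem_centralizer_iff.2 fun t ht => Subtype.ext ?_
    have hwT : ∀ t ∈ T, (w : G) * t * (w : G)⁻¹ ∈ T := fun t ht =>
      (hS _).1 ((mem_normalizer_iff.1 hw ⟨t, hTle ht⟩).1 ht)
    have hwT' : ∀ t ∈ T, (w : G)⁻¹ * t * (w : G) ∈ T := fun t ht => by
      have := (hS _).1 ((mem_normalizer_iff.1 (inv_mem hw) ⟨t, hTle ht⟩).1 ht)
      simpa using this
    exact (hTcomm _ ((hS t).1 ht) _ (hNC w w.2 hwT hwT')).eq.symm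
  set K := (MonoidHom.transferSylow S hN).ker
  have hK := MonoidHom.ker_transferSylow_isComplement' S hN
  set L := K.map C0.subtype with hL
  have hLiff : ∀ w : G, w ∈ L ↔ (orderOf w).Coprime p := by
    intro w
    constructor
    · rintro ⟨k, hk, rfl⟩
      show (orderOf (k : G)).Coprime p
      rw [orderOf_coe]
      refine Element.coprime_orderOf_of_mem ?_ hk
      exact Nat.coprime_comm.1 (hp.out.coprime_iff_not_dvd.2 (MonoidHom.not_dvd_card_ker_transferSylow S hN))
    · intro hw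
      refine ⟨⟨w, B.pp_mem H hw⟩, Element.mem_of_coprime_index (N := K) ?_, rfl⟩
      rw [orderOf_mk, hK.symm.index_eq_card]
      obtain ⟨i, hi⟩ := IsPGroup.iff_card.1 S.isPGroup'
      rw [hi]; exact hw.pow_right i
  haveI hLn : L.Normal := ⟨fun w hw b => (hLiff _).2 (by
    have e : orderOf (b * w * b⁻¹) = orderOf w :=
      orderOf_injective (MulAut.conj b).toMonoidHom (MulAut.conj b).injective w
    rw [e]; exact (hLiff w).1 hw)⟩
  have hLcop : (Nat.card L).Coprime p := by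
    rw [hL, card_subtype]
    exact Nat.coprime_comm.1 (hp.out.coprime_iff_not_dvd.2 (MonoidHom.not_dvd_card_ker_transferSylow S hN))
  have hLP : ∀ b : G, ∃ l ∈ L, ∃ π ∈ (P : Subgroup G), l * π = b := by
    refine ClassSize.mul_eq_univ_of_coprime_index ?_
    refine Nat.coprime_of_dvd fun t ht htL htP => ?_
    haveI := Fact.mk ht
    by_cases htp : t = p
    · subst htp; exact P.not_dvd_index htP
    obtain ⟨R⟩ : Nonempty (Sylow t G) := inferInstance
    refine R.not_dvd_index (htL.trans (index_dvd_of_le fun y hy => (hLiff y).2 ?_))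
    exact FourSizes.El.coprime_prime ht hp.out htp (el_of_mem_psub R.isPGroup' hy)
  have hLsmall : ∀ v, cls v = p → L ≤ centralizer ({v} : Set G) := by
    intro v hv
    have h1 : (centralizer ({v} : Set G)).relIndex L ∣ p := hv ▸ ClassSize.relIndex_dvd_index_of_normal_left L _
    have h2 : (centralizer ({v} : Set G)).relIndex L ∣ Nat.card L := relIndex_dvd_card _ _
    exact relIndex_eq_one.1 (Nat.eq_one_of_dvd_coprimes hLcop h2 h1)
  have hLx := hLsmall x B.xsmall
  -- a `q`-element centralised by `g`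
  obtain ⟨b₀, hb₀, hb₀c, hb₀e⟩ : NC q (centralizer ({g} : Set G)) := by
    refine H.nc_of_cls hq (x := a) (y := g) (by rw [B.big g hge hgc, B.big a hae hac]) ⟨x, ?_, hxc, hxe⟩
    exact mem_cent.2 (mem_cent.1 (normalCore_le C (B.TC0 haT))).symm
  have hb₀o : (orderOf b₀).Coprime p := hb₀e.coprime_prime hq hp.out hqp
  have hb₀L : b₀ ∈ L := (hLiff _).2 hb₀o
  have hxb : Commute x b₀ := (mem_cent.1 (hLx hb₀L)).symm
  have hb₀s : cls b₀ = p := by
    refine (H.cases hb₀c).resolve_right fun hbig => hg0 (B.mem g hge ?_)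
    have hle := H.big_central hbig (v := g) (mem_cent.1 hb₀) (El.commute_cop hge hb₀o).symm
    exact mem_cent.2 (mem_cent.1 (hle (mem_cent.2 hxb))).symm
  have hLb := hLsmall b₀ hb₀s
  -- a noncentral element of `P` fixing `x * b₀`
  obtain ⟨h, hhP, hhc, hhb⟩ : ∃ h ∈ (P : Subgroup G), h ∉ center G ∧ Commute h (x * b₀) := by
    by_cases hbc : x * b₀ ∈ center G
    · exact ⟨a, B.TP haT, hac, mem_center_iff.1 hbc a⟩
    obtain ⟨h', hh', hh'c, hh'e⟩ := H.exists_nc hpm hbc
    obtain ⟨k, hk⟩ := FGSev.pElem_conj_mem P hh'e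
    obtain ⟨l, hl, π, hπ, rfl⟩ := hLP k
    have h1 : l⁻¹ * h' * l ∈ (P : Subgroup G) := by
      have := (P : Subgroup G).mul_mem ((P : Subgroup G).mul_mem hπ hk) ((P : Subgroup G).inv_mem hπ)
      simpa [mul_assoc] using this
    refine ⟨_, h1, FourSizes.not_center_conj hh'c l, ?_⟩
    have hlc : Commute (x * b₀) l :=
      ((mem_cent.1 (hLx hl)).symm).mul_left (mem_cent.1 (hLb hl)).symm
    have := FourSizes.commute_conj (mem_cent.1 hh') l
    rwa [mul_assoc l⁻¹ (x * b₀) l, hlc.eq, inv_mul_cancel_left] at this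
  have hcase1 : h ∈ T → False := fun hhT => by
    have hhx : Commute h x := mem_cent.1 (normalCore_le C (B.TC0 hhT))
    have hhb₀ : Commute h b₀ := by
      have h1 := hhx.inv_right.mul_right hhb
      rwa [inv_mul_cancel_left] at h1
    obtain ⟨-, hspanh⟩ := exists_of_card P B.TP hZT hTz hhT hhc
    have hTb : T ≤ centralizer ({b₀} : Set G) := fun t ht => by
      obtain ⟨j, z, hz, rfl⟩ := hspanh t ht
      exact mem_cent.2 ((hhb₀.zpow_left j).mul_left (mem_center_iff.1 hz b₀).symm)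
    have h2 := H.psub_le hpm P.isPGroup' hb₀c (hPsup hgP hgT ▸
      sup_le hTb (zpowers_le.2 (mem_cent.2 (mem_cent.1 hb₀).symm)))
    exact absurd (H.cP_lt hpm P) h2.not_gt
  by_cases hhT : h ∈ T
  · exact hcase1 hhT
  -- write `h = r₀ * g ^ j`
  obtain ⟨hnorm, hidxP⟩ := conj_mem_of_index P B.TP B.Pc
  haveI := hnorm
  have hcardQ : Nat.card ((P : Subgroup G) ⧸ T.subgroupOf (P : Subgroup G)) = p := hidxP
  obtain ⟨j, hj⟩ := mem_zpowers_of_prime_card hcardQ
    (g := QuotientGroup.mk' (T.subgroupOf (P : Subgroup G)) ⟨g, hgP⟩)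
    (g' := QuotientGroup.mk' (T.subgroupOf (P : Subgroup G)) ⟨h, hhP⟩)
    (fun h0 => hgT ((QuotientGroup.eq_one_iff (N := T.subgroupOf (P : Subgroup G)) _).1 h0))
  set r₀ := h * (g ^ j)⁻¹ with hr₀
  have hr₀T : r₀ ∈ T := by
    have h1 : QuotientGroup.mk' (T.subgroupOf (P : Subgroup G))
        (⟨h, hhP⟩ * ((⟨g, hgP⟩ : (P : Subgroup G)) ^ j)⁻¹) = 1 := by
      rw [map_mul, map_inv, map_zpow, mul_inv_eq_one]; exact hj.symm
    exact (QuotientGroup.eq_one_iff (N := T.subgroupOf (P : Subgroup G)) _).1 h1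
  have hconj : h * b₀ * h⁻¹ = r₀ * b₀ * r₀⁻¹ := by
    have hgb : Commute (g ^ j) b₀ := (mem_cent.1 hb₀).symm.zpow_left j
    have e : g ^ j * b₀ * (g ^ j)⁻¹ = b₀ := by rw [hgb.eq, mul_inv_cancel_right]
    calc h * b₀ * h⁻¹ = r₀ * (g ^ j * b₀ * (g ^ j)⁻¹) * r₀⁻¹ := by rw [hr₀]; group
      _ = r₀ * b₀ * r₀⁻¹ := by rw [e]
  set f := (h * x * h⁻¹)⁻¹ * x with hf
  have hfb : r₀ * b₀ * r₀⁻¹ = f * b₀ := by
    rw [← hconj, hf]
    calc h * b₀ * h⁻¹ = (h * x * h⁻¹)⁻¹ * (h * (x * b₀) * h⁻¹) := by group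
      _ = (h * x * h⁻¹)⁻¹ * x * b₀ := by rw [hhb.eq, mul_inv_cancel_right, ← mul_assoc]
  have hrf : Commute r₀ f := by
    have h1 : Commute r₀ x := mem_cent.1 (normalCore_le C (B.TC0 hr₀T))
    have h2 : Commute r₀ (h * x * h⁻¹) := by
      have h3 := (mem_cent.1 ((B.TC0 hr₀T) h⁻¹)).map (MulAut.conj h).toMonoidHom
      simpa [mul_assoc] using h3
    exact h2.inv_right.mul_right h1
  have hit : ∀ l : ℕ, r₀ ^ l * b₀ * (r₀ ^ l)⁻¹ = f ^ l * b₀ := by
    intro l
    induction l with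
    | zero => simp
    | succ l ih =>
      calc r₀ ^ (l + 1) * b₀ * (r₀ ^ (l + 1))⁻¹ = r₀ * (r₀ ^ l * b₀ * (r₀ ^ l)⁻¹) * r₀⁻¹ := by
            rw [pow_succ', mul_inv_rev]; simp only [mul_assoc]
        _ = r₀ * f ^ l * (b₀ * r₀⁻¹) := by rw [ih]; simp only [mul_assoc]
        _ = f ^ l * (r₀ * b₀ * r₀⁻¹) := by rw [(hrf.pow_right l).eq]; simp only [mul_assoc]
        _ = f ^ (l + 1) * b₀ := by rw [hfb, ← mul_assoc, ← pow_succ]
  have h1 := hit (orderOf r₀)
  rw [pow_orderOf_eq_one, one_mul, inv_one, mul_one] at h1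
  have hxL : x ∈ L := (hLiff x).2 B.xpp
  have hfL : f ∈ L := L.mul_mem (L.inv_mem (hLn.conj_mem x hxL h)) hxL
  obtain ⟨i, hi⟩ := el_of_mem_psub P.isPGroup' (B.TP hr₀T)
  have hf1 : f = 1 := by
    rw [← orderOf_eq_one_iff]
    refine Nat.eq_one_of_dvd_coprimes ((hLiff f).1 hfL |>.pow_right i) dvd_rfl ?_
    rw [← hi]
    exact orderOf_dvd_of_pow_eq_one (mul_eq_right.1 h1.symm)
  have hhx : Commute h x := mul_inv_eq_iff_eq_mul.1 (inv_mul_eq_one.1 hf1)
  refine hhT ?_
  rw [← B.inf]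
  exact ⟨hhP, B.mem h (el_of_mem_psub P.isPGroup' hhP) (mem_cent.2 hhx)⟩

/-- Some `p`-element has class size `p`. -/
theorem exists_small_p [hp : Fact p.Prime] : ∃ x : G, El p x ∧ cls x = p := by
  by_contra hno
  push Not at hno
  obtain ⟨q, x, P, T, hq, hqp, hxe, B⟩ := exists_bad H fun t hte htc =>
    (H.cases htc).resolve_left (hno t hte)
  exact bad_false H hq hqp hxe B

end Cfsg.Agent.OneMMN
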