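import Cfsg.Agent.OneMMN.Basic
import Cfsg.Agent.OneMMN.Algebra

/-!
Class sizes `1, m, m * n`: a Sylow `p`-subgroup normalises the centraliser of a suitable element,
and `p` is the exact power of `p` in `m` as soon as that centraliser is not a `p`-group modulo the
centre.
-/

set_option autoImplicit false

namespace Cfsg.Agent.OneMMN

open Subgroup
open Cfsg.Agent.TwoLargest (cls mem_cent center_le_cent cls_pos center_of_cls_eq_one cent_eq_of_le)
open Cfsg.Agent.FourSizes (El NC)

variable {G : Type*} [Group G] [Finite G] {m n p : ℕ}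

omit [Finite G] in
theorem center_of_pow {a : G} {q : ℕ} (hq : q.Prime) (hp : p.Prime) (hqp : q ≠ p) (ha : El q a)
    (h : a ^ p ∈ center G) : a ∈ center G := by
  obtain ⟨k, hk⟩ := ha
  have hcop : (orderOf a).Coprime p := by
    rw [hk]; exact ((Nat.coprime_primes hq hp).2 hqp).pow_left k
  have h2 : a ∈ zpowers (a ^ p) := by
    obtain ⟨j, hj⟩ := exists_pow_eq_self_of_coprime hcop.symm
    exact ⟨(j : ℤ), by simpa using hj⟩
  exact zpowers_le.2 h h2

omit [Finite G] in
theorem cent_conj {g u : G} (h : g * u * g⁻¹ * u⁻¹ ∈ center G) :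
    centralizer ({g * u * g⁻¹} : Set G) = centralizer {u} := by
  ext x
  have hc : Commute x (g * u * g⁻¹ * u⁻¹) := mem_center_iff.1 h x
  rw [mem_cent, mem_cent]
  constructor <;> intro hx
  · have := hc.inv_right.mul_right hx
    simpa [mul_assoc] using this
  · have := hc.mul_right hx
    simpa [mul_assoc] using this

omit [Finite G] in
theorem conj_mem_cent_iff {g u : G} (h : g * u * g⁻¹ * u⁻¹ ∈ center G) {x : G} :
    g * x * g⁻¹ ∈ centralizer ({u} : Set G) ↔ x ∈ centralizer ({u} : Set G) := by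
  constructor <;> intro hx
  · rw [← cent_conj h] at hx
    have := mem_cent_conj hx g⁻¹
    simpa [mul_assoc] using this
  · have := mem_cent_conj hx g
    rwa [cent_conj h] at this

omit [Finite G] in
theorem mem_normalizer_cent {g u : G} (h : g * u * g⁻¹ * u⁻¹ ∈ center G) :
    g ∈ normalizer ((centralizer ({u} : Set G) : Subgroup G) : Set G) :=
  mem_normalizer_iff.2 fun _ => (conj_mem_cent_iff h).symm

omit [Finite G] in
theorem mem_normalizer_of_cent {g u : G}
    (h : centralizer ({g * u * g⁻¹} : Set G) = centralizer {u}) :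
    g ∈ normalizer ((centralizer ({u} : Set G) : Subgroup G) : Set G) :=
  mem_normalizer_iff.2 fun x => by
    constructor <;> intro hx
    · rw [← h]; exact mem_cent_conj hx g
    · rw [← h] at hx
      have := mem_cent_conj hx g⁻¹
      simpa [mul_assoc] using this

/-- A normal subgroup of a Sylow subgroup that is not central contains a noncentral element that
is central modulo the centre, of order `p` there. -/
theorem exists_u [hp : Fact p.Prime] (P : Sylow p G) {D : Subgroup G} (hDP : D ≤ (P : Subgroup G))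
    (hDn : ∀ g ∈ (P : Subgroup G), ∀ d ∈ D, g * d * g⁻¹ ∈ D) (hD : ¬ D ≤ center G) :
    ∃ u ∈ D, u ∉ center G ∧ u ^ p ∈ center G ∧
      ∀ g ∈ (P : Subgroup G), g * u * g⁻¹ * u⁻¹ ∈ center G := by
  set D' := D.subgroupOf (P : Subgroup G)
  haveI : D'.Normal := ⟨fun d hd g => hDn g g.2 d hd⟩
  haveI : ((center G).subgroupOf (P : Subgroup G)).Normal := inferInstance
  set f := QuotientGroup.mk' ((center G).subgroupOf (P : Subgroup G))
  haveI : (D'.map f).Normal := Normal.map inferInstance _ (QuotientGroup.mk'_surjective _)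
  have hQ : IsPGroup p ((P : Subgroup G) ⧸ (center G).subgroupOf (P : Subgroup G)) :=
    P.isPGroup'.to_quotient _
  have hne : D'.map f ≠ ⊥ := fun hb => by
    obtain ⟨d, hd, hdc⟩ := SetLike.not_le_iff_exists.1 hD
    rw [Subgroup.map_eq_bot_iff, QuotientGroup.ker_mk'] at hb
    exact hdc (hb (show (⟨d, hDP hd⟩ : (P : Subgroup G)) ∈ D' from hd))
  have hcz := PGroup.inf_center_ne_bot hQ _ hne
  set C := D'.map f ⊓ center _
  obtain ⟨z, hz⟩ := exists_prime_orderOf_dvd_card' (G := C) p
    ((hQ.to_subgroup C).card_eq_or_dvd.resolve_left fun h => hcz (card_eq_one.mp h))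
  obtain ⟨u, hu, huz⟩ := z.2.1
  refine ⟨u, hu, fun huc => ?_, ?_, fun g hg => ?_⟩
  · have h1 : f u = 1 := (QuotientGroup.eq_one_iff u).2 huc
    rw [huz] at h1
    have h2 : orderOf z = 1 := orderOf_eq_one_iff.2 (Subtype.ext h1)
    exact hp.out.ne_one (hz ▸ h2)
  · have h1 : f (u ^ p) = 1 := by
      rw [map_pow, huz]
      have := pow_orderOf_eq_one z
      rw [hz] at this
      exact congrArg Subtype.val this
    exact (QuotientGroup.eq_one_iff (N := (center G).subgroupOf (P : Subgroup G)) (u ^ p)).1 h1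
  · have h2 : f (⟨g, hg⟩ * u * (⟨g, hg⟩ : (P : Subgroup G))⁻¹ * u⁻¹) = 1 := by
      simp only [map_mul, map_inv, huz]
      rw [mem_center_iff.1 z.2.2 (f ⟨g, hg⟩)]
      simp
    exact (QuotientGroup.eq_one_iff (N := (center G).subgroupOf (P : Subgroup G)) _).1 h2

namespace Hyp

variable (H : Hyp G m n)
include H

/-- The intersection of a Sylow subgroup with a centraliser it normalises. -/
theorem card_inf [hp : Fact p.Prime] (hpm : p ∣ m) (P : Sylow p G) {g : G} (hg : g ∉ center G)
    (hN : (P : Subgroup G) ≤ normalizer ((centralizer ({g} : Set G) : Subgroup G) : Set G)) :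
    Nat.card ↥((P : Subgroup G) ⊓ centralizer ({g} : Set G)) = cP G m p := by
  refine le_antisymm (H.psub_le hpm P.isPGroup'.to_inf_left hg inf_le_right) ?_
  set C := centralizer ({g} : Set G)
  set N := normalizer ((C : Subgroup G) : Set G)
  have hCN : C ≤ N := le_normalizer
  haveI : (C.subgroupOf N).Normal := normal_subgroupOf_iff_le_normalizer hCN |>.2 le_rfl
  have hd : C.relIndex (P : Subgroup G) ∣ C.index := by
    rw [← relIndex_subgroupOf hN]
    exact (relIndex_dvd_index_of_normal _ _).trans (relIndex_dvd_index_of_le hCN)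
  obtain ⟨e, he⟩ : ∃ e, C.relIndex (P : Subgroup G) = p ^ e := by
    obtain ⟨e, he⟩ := IsPGroup.iff_card.1 P.isPGroup'
    obtain ⟨i, -, hi⟩ := (Nat.dvd_prime_pow hp.out).1 (he ▸ relIndex_dvd_card C (P : Subgroup G))
    exact ⟨i, hi⟩
  have he' : e ≤ m.factorization p := by
    rw [← H.fac_cls hp.out hpm hg]
    exact (hp.out.pow_dvd_iff_le_factorization index_ne_zero_of_finite).1 (he ▸ hd)
  have hPc : Nat.card ↥((P : Subgroup G) ⊓ C) * p ^ e = p ^ (Nat.card G).factorization p := by
    have h1 := card_mul_index (C.subgroupOf (P : Subgroup G))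
    rw [← inf_subgroupOf_right, Nat.card_congr (subgroupOfEquivOfLe inf_le_right).toEquiv,
      inf_subgroupOf_right, inf_comm] at h1
    rw [← Sylow.card_eq_multiplicity P, ← he]
    exact h1
  have hmG : m.factorization p ≤ (Nat.card G).factorization p := by
    rw [← H.fac_cls hp.out hpm hg]
    exact (Nat.factorization_le_iff_dvd index_ne_zero_of_finite Nat.card_pos.ne').2 (index_dvd_card _) p
  refine Nat.le_of_mul_le_mul_right ?_ (pow_pos hp.out.pos e)
  rw [hPc, cP, ← pow_add]
  exact Nat.pow_le_pow_right hp.out.pos (by omega)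

/-- A `p`-element normalising a centraliser and fixing a noncentral `p'`-element there lies in it. -/
theorem fix_mem [hp : Fact p.Prime] (hpm : p ∣ m) (P : Sylow p G) {u : G} (hue : El p u)
    (hu : u ∉ center G)
    (hN : (P : Subgroup G) ≤ normalizer ((centralizer ({u} : Set G) : Subgroup G) : Set G))
    {g : G} (hg : g ∈ (P : Subgroup G)) (hgu : g ∉ centralizer ({u} : Set G)) {a : G}
    (ha : a ∈ centralizer ({u} : Set G)) (hao : (orderOf a).Coprime p) (hga : Commute g a) :
    a ∈ center G := by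
  by_contra hac
  set A := (P : Subgroup G) ⊓ centralizer ({u} : Set G)
  have hlt : A < A ⊔ zpowers g :=
    lt_of_le_of_ne le_sup_left fun e => hgu (e ▸ mem_sup_right (mem_zpowers g) : g ∈ A).2
  have hb := H.psub_le hpm (P.isPGroup'.to_le (sup_le inf_le_left (zpowers_le.2 hg))) hac
    (sup_le (fun r hr => mem_cent.2
      (H.commute_in_cent hpm hue hu hr.2 (el_of_mem_psub P.isPGroup' hr.1) ha hao))
      (zpowers_le.2 (mem_cent.2 hga)))
  exact hlt.ne (eq_of_le_of_card_ge hlt.le (hb.trans (H.card_inf hpm P hu hN).ge))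

/-- `p ∥ m` if a normalised centraliser has a noncentral abelian `q`-part. -/
theorem card_sylow_eq [hp : Fact p.Prime] (hpm : p ∣ m) (P : Sylow p G) {u : G} (hue : El p u)
    (hu : u ∉ center G) (hup : u ^ p ∈ center G)
    (hu2 : ∀ g ∈ (P : Subgroup G), g * u * g⁻¹ * u⁻¹ ∈ center G)
    {q : ℕ} (hq : q.Prime) (hqp : q ≠ p) (hnc : NC q (centralizer ({u} : Set G)))
    (hab : ∀ a b, a ∈ centralizer ({u} : Set G) → El q a → b ∈ centralizer ({u} : Set G) → El q b →
      Commute a b) :
    Nat.card P = p * cP G m p := by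
  haveI := Fact.mk hq
  have hN : (P : Subgroup G) ≤ normalizer ((centralizer ({u} : Set G) : Subgroup G) : Set G) :=
    fun g hg => mem_normalizer_cent (hu2 g hg)
  set C := centralizer ({u} : Set G)
  set A := (P : Subgroup G) ⊓ C
  have hA : Nat.card A = cP G m p := H.card_inf hpm P hu hN
  -- `P` modulo `A` has exponent `p` and is abelian
  have hz : ∀ g ∈ (P : Subgroup G), ∀ k : ℕ, g ^ k * u * (g ^ k)⁻¹ = (g * u * g⁻¹ * u⁻¹) ^ k * u := by
    intro g hg k
    induction k with
    | zero => simp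
    | succ k ih =>
      have hc := mem_center_iff.1 (pow_mem (hu2 g hg) k) g
      set ζ := g * u * g⁻¹ * u⁻¹ with hζ
      have e : g * u * g⁻¹ = ζ * u := by rw [hζ, inv_mul_cancel_right]
      calc g ^ (k + 1) * u * (g ^ (k + 1))⁻¹ = g * (g ^ k * u * (g ^ k)⁻¹) * g⁻¹ := by
            rw [pow_succ', mul_inv_rev]; simp only [mul_assoc]
        _ = g * (ζ ^ k * u) * g⁻¹ := by rw [ih]
        _ = ζ ^ k * (g * u * g⁻¹) := by rw [← mul_assoc g, hc]; simp only [mul_assoc]
        _ = ζ ^ (k + 1) * u := by rw [e, pow_succ, ← mul_assoc]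
  have hpA : ∀ g ∈ (P : Subgroup G), g ^ p ∈ C := by
    intro g hg
    have h1 : (g * u * g⁻¹ * u⁻¹) ^ p = 1 := by
      have h2 : (g * u * g⁻¹ * u⁻¹ * u) ^ p = g * u ^ p * g⁻¹ := by
        rw [inv_mul_cancel_right, conj_pow]
      rw [Commute.mul_pow (mem_center_iff.1 (hu2 g hg) u).symm, mem_center_iff.1 hup g,
        mul_inv_cancel_right] at h2
      exact mul_eq_right.1 h2
    refine mem_cent.2 ?_
    have := hz g hg p
    rw [h1, one_mul, mul_inv_eq_iff_eq_mul] at this
    exact this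
  have hcomm : ∀ g ∈ (P : Subgroup G), ∀ h ∈ (P : Subgroup G), g⁻¹ * h⁻¹ * g * h ∈ C := by
    intro g hg h hh
    refine mem_cent.2 ((TwoLargest.commute_conj_iff _ _).2 ?_)
    set α := h * u * h⁻¹ * u⁻¹
    set β := g * u * g⁻¹ * u⁻¹
    have hα := mem_center_iff.1 (hu2 h hh)
    have hβ := mem_center_iff.1 (hu2 g hg)
    have eh : h * u * h⁻¹ = α * u := by simp only [α, inv_mul_cancel_right]
    have eg : g * u * g⁻¹ = β * u := by simp only [β, inv_mul_cancel_right]
    have e1 : g * h * u * (g * h)⁻¹ = α * β * u := by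
      calc g * h * u * (g * h)⁻¹ = g * (h * u * h⁻¹) * g⁻¹ := by group
        _ = g * (α * u) * g⁻¹ := by rw [eh]
        _ = α * (g * u * g⁻¹) := by rw [← mul_assoc g, hα g]; simp only [α, mul_assoc]
        _ = α * β * u := by rw [eg, ← mul_assoc]
    have e2 : h * g * u * (h * g)⁻¹ = α * β * u := by
      calc h * g * u * (h * g)⁻¹ = h * (g * u * g⁻¹) * h⁻¹ := by group
        _ = h * (β * u) * h⁻¹ := by rw [eg]
        _ = β * (h * u * h⁻¹) := by rw [← mul_assoc h, hβ h]; simp only [β, mul_assoc]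
        _ = β * (α * u) := by rw [eh]
        _ = α * β * u := by rw [← mul_assoc, ← hα β]
    calc g⁻¹ * h⁻¹ * g * h * u * (g⁻¹ * h⁻¹ * g * h)⁻¹
        = (h * g)⁻¹ * (g * h * u * (g * h)⁻¹) * (h * g) := by group
      _ = (h * g)⁻¹ * (h * g * u * (h * g)⁻¹) * (h * g) := by rw [e1, e2]
      _ = u := by group
  refine le_antisymm ?_ ?_
  swap
  · obtain ⟨i, hi⟩ := IsPGroup.iff_card.1 P.isPGroup'
    have hlt := H.cP_lt hpm P
    rw [hi] at hlt ⊢
    rw [cP] at hlt ⊢
    rw [← pow_succ']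
    exact Nat.pow_le_pow_right hp.out.pos ((Nat.pow_lt_pow_iff_right hp.out.one_lt).1 hlt)
  by_contra hbig
  push Not at hbig
  obtain ⟨g, hgP, hgC⟩ : ∃ g ∈ (P : Subgroup G), g ∉ C := by
    by_contra hall
    push Not at hall
    exact hu (H.center_of_sylow_le hpm P hall)
  obtain ⟨h, hhP, hh⟩ : ∃ h ∈ (P : Subgroup G), ∀ j : ℕ, g ^ j * h ∉ C := by
    by_contra hall
    push Not at hall
    classical
    haveI : Fintype G := Fintype.ofFinite G
    have hsub : ((P : Subgroup G) : Set G) ⊆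
        (fun jd : Fin p × A => (g ^ (jd.1 : ℕ))⁻¹ * (jd.2 : G)) '' Set.univ := by
      intro h hh
      obtain ⟨j, hj⟩ := hall h hh
      have hj' : g ^ (j % p) * h ∈ A := by
        refine ⟨mul_mem (pow_mem hgP _) hh, ?_⟩
        have e : g ^ (j % p) * h = ((g ^ p) ^ (j / p))⁻¹ * (g ^ j * h) :=
          eq_inv_mul_of_mul_eq (by rw [← mul_assoc, ← pow_mul, ← pow_add, Nat.div_add_mod])
        rw [e]
        exact C.mul_mem (C.inv_mem (C.pow_mem (hpA g hgP) _)) hj
      exact ⟨(⟨j % p, Nat.mod_lt _ hp.out.pos⟩, ⟨_, hj'⟩), trivial, by simp⟩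
    have h1 := (Set.ncard_le_ncard hsub (Set.toFinite _)).trans (Set.ncard_image_le (Set.toFinite _))
    rw [Set.ncard_univ, Nat.card_prod, Nat.card_fin, hA, ← Nat.card_coe_set_eq] at h1
    exact absurd h1 hbig.not_ge
  -- the `q`-part
  let V : Subgroup G :=
    { carrier := {a | a ∈ C ∧ El q a}
      one_mem' := ⟨one_mem _, 0, by simp⟩
      mul_mem' := fun {a b} ha hb => ⟨mul_mem ha.1 hb.1, by
        obtain ⟨i, hi⟩ := ha.2
        obtain ⟨j, hj⟩ := hb.2
        have := (hab a b ha.1 ha.2 hb.1 hb.2).orderOf_mul_dvd_lcm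
        obtain ⟨r, -, hr⟩ := (Nat.dvd_prime_pow hq).1
          ((this.trans (Nat.lcm_dvd_mul _ _)).trans (by rw [hi, hj, ← pow_add]))
        exact ⟨r, hr⟩⟩
      inv_mem' := fun {a} ha => ⟨inv_mem ha.1, by simpa [El] using ha.2⟩ }
  letI : CommGroup V :=
    { (inferInstance : Group V) with
      mul_comm := fun a b => Subtype.ext (hab a b a.2.1 a.2.2 b.2.1 b.2.2).eq }
  have hNV : (P : Subgroup G) ≤ normalizer (V : Set G) := fun x hx => mem_normalizer_iff.2 fun a => by
    refine ⟨fun ha => ⟨(conj_mem_cent_iff (hu2 x hx)).2 ha.1, conj_el ha.2 x⟩, fun ha => ⟨(conj_mem_cent_iff (hu2 x hx)).1 ha.1, ?_⟩⟩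
    have := conj_el ha.2 x⁻¹
    simpa [mul_assoc] using this
  let ρ : (P : Subgroup G) →* MulAut V := (normalizerMonoidHom V).comp (inclusion hNV)
  have hρ : ∀ (x : (P : Subgroup G)) (v : V), ((ρ x v : V) : G) = (x : G) * v * (x : G)⁻¹ := fun x v => rfl
  have hρ1 : ∀ x : (P : Subgroup G), (x : G) ∈ C → ρ x = 1 := fun x hx => MulEquiv.ext fun v =>
    Subtype.ext (by
      rw [hρ, (H.commute_in_cent hpm hue hu hx (el_of_mem_psub P.isPGroup' x.2) v.2.1
        (v.2.2.coprime_prime hq hp.out hqp)).eq, mul_inv_cancel_right]; rfl)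
  set g' : (P : Subgroup G) := ⟨g, hgP⟩
  set h' : (P : Subgroup G) := ⟨h, hhP⟩
  have hgh : Commute (ρ g') (ρ h') := by
    have h1 := hρ1 (g'⁻¹ * h'⁻¹ * g' * h') (hcomm g hgP h hhP)
    simp only [map_mul, map_inv, mul_assoc, inv_mul_eq_one] at h1
    show ρ g' * ρ h' = ρ h' * ρ g'
    exact inv_mul_eq_iff_eq_mul.1 h1.symm
  let Z0 : Subgroup V := (center G).subgroupOf V
  have hfix : ∀ x : (P : Subgroup G), (x : G) ∉ C → ∀ v, ρ x v = v → v ∈ Z0 := fun x hx v hv =>
    H.fix_mem hpm P hue hu hN x.2 hx v.2.1 (v.2.2.coprime_prime hq hp.out hqp)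
      (mul_inv_eq_iff_eq_mul.1 ((hρ x v).symm.trans (congrArg Subtype.val hv)))
  obtain ⟨a, haC, hac, hae⟩ := hnc
  have hmem := pow_mem_of_commute (ρ g') (ρ h') (by rw [← map_pow]; exact hρ1 _ (hpA g hgP))
    (by rw [← map_pow]; exact hρ1 _ (hpA h hhP)) hgh Z0 (hfix g' hgC)
    (fun j => by rw [← map_pow, ← map_mul]; exact hfix _ (hh j)) ⟨a, haC, hae⟩
  exact hac (center_of_pow hq hp.out hqp hae (by simpa [Z0, mem_subgroupOf] using hmem))

end Hyp

end Cfsg.Agent.OneMMN
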